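import Cfsg.Agent.SmallGroups.Basic
import Cfsg.Agent.Linear.OrderSixty
import Cfsg.Agent.Char.PermChar
import Cfsg.Agent.Char.InvolutionCount
import Cfsg.Agent.CharInd.Ito
import Cfsg.Prelude.Def_DegreeGraph

/-! A group of order 60 with a degree divisible by 5 is the alternating group. -/

set_option autoImplicit false
set_option linter.style.haveILetI false

namespace Cfsg.Agent.DegreeSixty

open Subgroup

variable {G : Type*} [Group G] [Finite G]

theorem card_sylow_five (P : Sylow 5 G) (h : Nat.card G = 60) : Nat.card (P : Subgroup G) = 5 := by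
  haveI : Fact (Nat.Prime 5) := ⟨by norm_num⟩
  rw [SmallGroups.card_sylow_subgroup (a := 1) (m := 12) (by omega) (by norm_num) P, pow_one]

theorem orbit_sylow_eq [Fact (Nat.Prime 5)] (h6 : Nat.card (Sylow 5 G) = 6)
    (h5 : ∀ P : Sylow 5 G, Nat.card (P : Subgroup G) = 5) (P Q R : Sylow 5 G) (hQ : Q ≠ P) (hR : R ≠ P) :
    ∃ x ∈ (P : Subgroup G), x • Q = R := by
  classical
  haveI := Fintype.ofFinite (Sylow 5 G)
  haveI : Finite (MulAction.orbit (P : Subgroup G) Q) := inferInstance
  have hdvd : Nat.card (MulAction.orbit (P : Subgroup G) Q) ∣ 5 := by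
    rw [Nat.card_congr (MulAction.orbitEquivQuotientStabilizer (P : Subgroup G) Q)]
    exact (Subgroup.card_quotient_dvd_card _).trans (dvd_of_eq (h5 P))
  have hne : Nat.card (MulAction.orbit (P : Subgroup G) Q) ≠ 1 := by
    intro h1
    haveI := (Nat.card_eq_one_iff_unique.1 h1).1
    have hfix : ∀ x : (P : Subgroup G), x • Q = Q := fun x =>
      congrArg Subtype.val (Subsingleton.elim (⟨x • Q, MulAction.mem_orbit _ _⟩ : MulAction.orbit (P : Subgroup G) Q)
        ⟨Q, MulAction.mem_orbit_self Q⟩)
    have hle : (P : Subgroup G) ≤ normalizer ((Q : Subgroup G) : Set G) := fun x hx =>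
      Sylow.smul_eq_iff_mem_normalizer.1 (hfix ⟨x, hx⟩)
    apply hQ
    have hsup : IsPGroup 5 ((P : Subgroup G) ⊔ (Q : Subgroup G) : Subgroup G) :=
      P.2.to_sup_of_normal_right' Q.2 hle
    exact (Sylow.ext ((Q.3 hsup le_sup_right).symm.trans (P.3 hsup le_sup_left)))
  have hc : Nat.card (MulAction.orbit (P : Subgroup G) Q) = 5 :=
    ((Nat.prime_five.eq_one_or_self_of_dvd _ hdvd)).resolve_left hne
  have hP : P ∉ MulAction.orbit (P : Subgroup G) Q := by
    intro hmem
    obtain ⟨x, hx⟩ := hmem
    change x • Q = P at hx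
    apply hQ
    have h2 : x⁻¹ • P = Q := inv_smul_eq_iff.2 hx.symm
    rw [← h2]
    exact Sylow.smul_eq_iff_mem_normalizer.2 (Subgroup.le_normalizer (inv_mem x.2))
  have huniv : MulAction.orbit (P : Subgroup G) Q = {P}ᶜ := by
    refine Set.eq_of_subset_of_ncard_le (fun S hS => ?_) ?_
    · intro hSP
      exact hP (hSP ▸ hS)
    · rw [Set.ncard_compl, Set.ncard_singleton, h6]
      have : (MulAction.orbit (P : Subgroup G) Q).ncard = 5 := by rw [← Nat.card_coe_set_eq]; exact hc
      omega
  obtain ⟨x, hx⟩ : R ∈ MulAction.orbit (P : Subgroup G) Q := by rw [huniv]; exact hR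
  exact ⟨x, x.2, hx⟩

theorem two_transitive [Fact (Nat.Prime 5)] (h6 : Nat.card (Sylow 5 G) = 6)
    (h5 : ∀ P : Sylow 5 G, Nat.card (P : Subgroup G) = 5) :
    MulAction.IsMultiplyPretransitive G (Sylow 5 G) 2 := by
  rw [MulAction.is_two_pretransitive_iff]
  intro a b c d hab hcd
  obtain ⟨g, hg⟩ := MulAction.exists_smul_eq G a c
  have hne : g • b ≠ c := fun h => hab (MulAction.injective g (hg.trans h.symm))
  obtain ⟨x, hx, hxd⟩ := orbit_sylow_eq h6 h5 c (g • b) d hne hcd.symm
  refine ⟨x * g, ?_, by rw [mul_smul]; exact hxd⟩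
  rw [mul_smul, hg]
  exact Sylow.smul_eq_iff_mem_normalizer.2 (Subgroup.le_normalizer hx)

theorem five_mem_degreePrimes [Fact (Nat.Prime 5)] (h6 : Nat.card (Sylow 5 G) = 6)
    (h5 : ∀ P : Sylow 5 G, Nat.card (P : Subgroup G) = 5) : 5 ∈ Cfsg.degreePrimes G := by
  have hirr := (Char.isIrrCharacter_permChar_sub_one_iff (G := G) (X := Sylow 5 G) (by omega)).2
    (two_transitive h6 h5)
  refine ⟨Nat.prime_five, 5, ⟨⟨_, hirr⟩, Char.charDegree_of_eq ?_⟩, dvd_rfl⟩
  have : Char.permChar (Sylow 5 G) (1 : G) = 6 := by
    simp [Char.permChar, h6]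
  show Char.permChar (Sylow 5 G) (1 : G) - 1 = _
  rw [this]
  norm_num

theorem card_sylow_five_eq (h : Nat.card G = 60) [Fact (Nat.Prime 5)] :
    Nat.card (Sylow 5 G) = 1 ∨ Nat.card (Sylow 5 G) = 6 := by
  obtain ⟨P⟩ := Sylow.nonempty (p := 5) (G := G)
  have hd : Nat.card (Sylow 5 G) ∣ 12 := by
    have := P.card_dvd_index
    have hi := (P : Subgroup G).index_mul_card
    rw [card_sylow_five P h, h] at hi
    rwa [show (P : Subgroup G).index = 12 by omega] at this
  have hm := card_sylow_modEq_one 5 G
  have := Nat.le_of_dvd (by norm_num) hd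
  unfold Nat.ModEq at hm
  interval_cases hc : Nat.card (Sylow 5 G) <;> omega

theorem five_not_mem_degreePrimes (h : Nat.card G = 60) (P : Subgroup G) [P.Normal]
    (hP : Nat.card P = 5) : 5 ∉ Cfsg.degreePrimes G := by
  rintro ⟨-, d, ⟨χ, hχ⟩, hd⟩
  haveI : Fact (Nat.Prime 5) := ⟨Nat.prime_five⟩
  haveI : IsCyclic P := isCyclic_of_prime_card hP
  obtain ⟨n, ρ, hρ, hρχ⟩ := χ.2
  haveI := hρ
  have h1 := CharInd.finrank_dvd_index_of_comm_normal ρ P fun a ha b hb =>
    congrArg Subtype.val ((IsCyclic.isMulCommutative (α := P)).is_comm.comm ⟨a, ha⟩ ⟨b, hb⟩ :)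
  have hi := P.index_mul_card
  rw [hP, h] at hi
  rw [show P.index = 12 by omega, Module.finrank_fin_fun] at h1
  have hdn : d = n := by
    rw [← hχ, ← hρχ]
    refine Char.charDegree_of_eq ?_
    rw [ρ.char_one, Module.finrank_fin_fun]
  subst hdn
  exact absurd (hd.trans h1) (by norm_num)

theorem no_small_normal (h : Nat.card G = 60) [Fact (Nat.Prime 5)] (h6 : Nat.card (Sylow 5 G) = 6)
    (N : Subgroup G) [N.Normal] (hN : Nat.card N = 6 ∨ Nat.card N = 12) : False := by
  haveI : Fact (Nat.Prime 3) := ⟨Nat.prime_three⟩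
  obtain ⟨P⟩ := Sylow.nonempty (p := 5) (G := G)
  have hP5 := card_sylow_five P h
  -- `P` fixes a Sylow 3-subgroup of `N`
  have h3 : Nat.card (Sylow 3 N) ∣ 4 := by
    obtain ⟨R⟩ := Sylow.nonempty (p := 3) (G := N)
    refine R.card_dvd_index.trans ?_
    have hi := (R : Subgroup N).index_mul_card
    rcases hN with hN | hN
    · rw [SmallGroups.card_sylow_subgroup (a := 1) (m := 2) (by omega) (by norm_num) R, hN] at hi
      rw [show (R : Subgroup N).index = 2 by omega]; norm_num
    · rw [SmallGroups.card_sylow_subgroup (a := 1) (m := 4) (by omega) (by norm_num) R, hN] at hi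
      rw [show (R : Subgroup N).index = 4 by omega]
  let φ : (P : Subgroup G) →* MulAut N := MulAut.conjNormal.comp (P : Subgroup G).subtype
  letI : MulDistribMulAction (P : Subgroup G) N := MulDistribMulAction.compHom N φ
  have hfix : ∃ R : Sylow 3 N, ∀ x : (P : Subgroup G), x • R = R := by
    have hp : IsPGroup 5 (P : Subgroup G) := P.2
    obtain ⟨R, hR⟩ := hp.nonempty_fixed_point_of_prime_not_dvd_card (Sylow 3 N) (fun hd => by
      have := Nat.le_of_dvd (by norm_num) (hd.trans h3); omega)
    exact ⟨R, fun x => hR x⟩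
  obtain ⟨R, hR⟩ := hfix
  let R' : Subgroup G := (R : Subgroup N).map N.subtype
  have hR3 : Nat.card R' = 3 := by
    rw [card_map_of_injective N.subtype_injective]
    rcases hN with hN | hN
    · rw [SmallGroups.card_sylow_subgroup (a := 1) (m := 2) (by omega) (by norm_num) R, pow_one]
    · rw [SmallGroups.card_sylow_subgroup (a := 1) (m := 4) (by omega) (by norm_num) R, pow_one]
  have hnorm : (P : Subgroup G) ≤ normalizer (R' : Set G) := by
    intro x hx
    rw [mem_normalizer_iff_map_conj_eq]
    have h1 : ((⟨x, hx⟩ : (P : Subgroup G)) • (R : Sylow 3 N)).1 = (R : Subgroup N) := by rw [hR]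
    calc R'.map _ = ((⟨x, hx⟩ : (P : Subgroup G)) • (R : Sylow 3 N)).1.map N.subtype := by
          ext y
          constructor
          · rintro ⟨-, ⟨r, hr, rfl⟩, rfl⟩
            exact ⟨φ ⟨x, hx⟩ r, ⟨r, hr, rfl⟩, MulAut.conjNormal_apply x r⟩
          · rintro ⟨-, ⟨r, hr, rfl⟩, rfl⟩
            exact ⟨(r : G), ⟨r, hr, rfl⟩, (MulAut.conjNormal_apply x r).symm⟩
      _ = R' := by rw [h1]
  have hn10 : Nat.card (normalizer ((P : Subgroup G) : Set G)) = 10 := by
    have := SmallGroups.card_sylow_mul_card_normalizer P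
    rw [h6, h] at this
    omega
  obtain ⟨r, hr⟩ := exists_prime_orderOf_dvd_card' (G := R') 3 (by rw [hR3])
  obtain ⟨x, hx⟩ := exists_prime_orderOf_dvd_card' (G := (P : Subgroup G)) 5 (by rw [hP5])
  have hcomm : Commute (x : G) (r : G) := by
    let ψ : (P : Subgroup G) →* MulAut R' := R'.normalizerMonoidHom.comp (inclusion hnorm)
    haveI : IsCyclic R' := isCyclic_of_prime_card hR3
    have h2 : Nat.card (MulAut R') = 2 := by rw [IsCyclic.card_mulAut, hR3]; rfl
    have h1 : ψ x = 1 := orderOf_eq_one_iff.1 (Nat.eq_one_of_dvd_coprimes (a := 5) (b := 2) (by norm_num)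
      ((orderOf_map_dvd ψ x).trans (dvd_of_eq hx)) ((_root_.orderOf_dvd_natCard (ψ x)).trans (dvd_of_eq h2)))
    have h3' : ((ψ x r : R') : G) = (r : G) := by rw [h1]; rfl
    change (x : G) * (r : G) * (x : G)⁻¹ = (r : G) at h3'
    exact mul_inv_eq_iff_eq_mul.1 h3'
  have hzP : zpowers (x : G) = (P : Subgroup G) :=
    eq_of_le_of_card_ge (zpowers_le.2 x.2) (by rw [Nat.card_zpowers, Subgroup.orderOf_coe, hx, hP5])
  have hrN : (r : G) ∈ normalizer ((P : Subgroup G) : Set G) := by
    rw [← hzP, mem_normalizer_iff_map_conj_eq, MonoidHom.map_zpowers]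
    congr 1
    simp [← hcomm.eq]
  have := Subgroup.orderOf_dvd_natCard _ hrN
  rw [Subgroup.orderOf_coe, hr, hn10] at this
  norm_num at this

theorem isSimple_of_six (h : Nat.card G = 60) [Fact (Nat.Prime 5)] (h6 : Nat.card (Sylow 5 G) = 6) :
    IsSimpleGroup G := by
  haveI : Nontrivial G := Finite.one_lt_card_iff_nontrivial.1 (by omega)
  refine ⟨fun N hN => ?_⟩
  haveI := hN
  obtain ⟨P⟩ := Sylow.nonempty (p := 5) (G := G)
  have hP5 := card_sylow_five P h
  by_cases hd : 5 ∣ Nat.card N
  · -- `N` contains every Sylow 5-subgroup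
    have hall : ∀ Q : Sylow 5 G, (Q : Subgroup G) ≤ N := by
      intro Q
      obtain ⟨y, hy⟩ := exists_prime_orderOf_dvd_card' (G := N) 5 hd
      have hy' : orderOf (y : G) = 5 := by rw [Subgroup.orderOf_coe, hy]
      let Y : Sylow 5 G := Sylow.ofCard (zpowers (y : G)) (by
        rw [Nat.card_zpowers, hy', h]
        have : Nat.factorization 60 5 = 1 := by
          rw [show 60 = 5 * 12 by norm_num, Nat.factorization_mul (by norm_num) (by norm_num),
            Finsupp.add_apply, Nat.Prime.factorization_self Nat.prime_five,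
            Nat.factorization_eq_zero_of_not_dvd (by norm_num)]
        rw [this, pow_one])
      obtain ⟨g, rfl⟩ := MulAction.exists_smul_eq G Y Q
      intro z hz
      rw [Sylow.coe_subgroup_smul, mem_pointwise_smul_iff_inv_smul_mem] at hz
      have hzN : g⁻¹ * z * g ∈ N := by
        have h1 : (MulAut.conj g)⁻¹ • z ∈ zpowers (y : G) := hz
        have h2 := (zpowers_le.2 y.2) h1
        simpa [mul_assoc] using h2
      have := hN.conj_mem _ hzN g
      simpa [mul_assoc] using this
    have h6N : 6 ≤ Nat.card (Sylow 5 N) := by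
      rw [← h6]
      refine Nat.card_le_card_of_injective (fun Q => Q.subtype (hall Q)) fun Q Q' hQQ => ?_
      refine Sylow.ext (le_antisymm (fun z hz => ?_) (fun z hz => ?_))
      · have : (⟨z, hall Q hz⟩ : N) ∈ (Q.subtype (hall Q) : Subgroup N) := hz
        rw [show Q.subtype (hall Q) = Q'.subtype (hall Q') from hQQ] at this
        exact this
      · have : (⟨z, hall Q' hz⟩ : N) ∈ (Q'.subtype (hall Q') : Subgroup N) := hz
        rw [show Q'.subtype (hall Q') = Q.subtype (hall Q) from hQQ.symm] at this
        exact this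
    have hc5 : ∀ Q : Sylow 5 N, Nat.card (Q : Subgroup N) = 5 := by
      intro Q
      have h1 : 5 ∣ Nat.card (Q : Subgroup N) := Q.dvd_card_of_dvd_card hd
      have h2 : Nat.card (Q : Subgroup N) ∣ 5 := by
        obtain ⟨Q', hQ'⟩ := (Q.2.map N.subtype).exists_le_sylow
        rw [← card_map_of_injective (K := (Q : Subgroup N)) (f := N.subtype) N.subtype_injective]
        exact (card_dvd_of_le hQ').trans (dvd_of_eq (card_sylow_five Q' h))
      exact Nat.dvd_antisymm h2 h1
    have h24 := SmallGroups.card_orderOf_eq_prime hc5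
    have hle : Nat.card {g : N // orderOf g = 5} < Nat.card N := by
      refine lt_of_le_of_ne (Nat.card_le_card_of_injective _ Subtype.val_injective) fun he => ?_
      have hb := (Nat.bijective_iff_injective_and_card _).2 ⟨Subtype.val_injective, he⟩
      obtain ⟨z, hz⟩ := hb.2 (1 : N)
      have h0 := z.2
      rw [hz, orderOf_one] at h0
      norm_num at h0
    have hN30 : Nat.card N = 30 ∨ Nat.card N = 60 := by
      have hdvd := N.card_subgroup_dvd_card
      rw [h] at hdvd
      have hge : 25 ≤ Nat.card N := by omega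
      have hle' := Nat.le_of_dvd (by norm_num) hdvd
      have hcases : ∀ n ∈ (60 : ℕ).divisors, 25 ≤ n → n = 30 ∨ n = 60 := by decide
      exact hcases _ (Nat.mem_divisors.2 ⟨hdvd, by norm_num⟩) hge
    rcases hN30 with hN30 | hN60
    · exfalso
      obtain ⟨Q⟩ := Sylow.nonempty (p := 5) (G := N)
      have hn := SmallGroups.card_sylow_mul_card_normalizer Q
      have hn5 : Nat.card (normalizer ((Q : Subgroup N) : Set N)) = 5 := by
        have hge5 := card_le_of_le (le_normalizer : (Q : Subgroup N) ≤ _)
        rw [hc5 Q] at hge5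
        rw [hN30] at hn
        nlinarith
      have hQn : (Q : Subgroup N) = normalizer ((Q : Subgroup N) : Set N) :=
        eq_of_le_of_card_ge le_normalizer (by rw [hn5, hc5 Q])
      haveI : IsCyclic (Q : Subgroup N) := isCyclic_of_prime_card (hc5 Q)
      haveI : IsMulCommutative (Q : Subgroup N) := IsCyclic.isMulCommutative
      have hcomp := MonoidHom.ker_transferSylow_isComplement' Q (hQn.symm.le.trans (Subgroup.le_centralizer _))
      set K := (MonoidHom.transferSylow Q (hQn.symm.le.trans (Subgroup.le_centralizer _))).ker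
      have hK6 : Nat.card K = 6 := by
        have := hcomp.card_mul_card
        rw [hc5 Q, hN30] at this
        omega
      -- the complement is characteristic, hence normal in `G`
      have hKc : K.Characteristic := by
        refine characteristic_iff_map_le.2 fun e z hz => ?_
        obtain ⟨w, hw, rfl⟩ := hz
        change e w ∈ K
        by_contra hne
        have h1 : orderOf (e w) ∣ 6 := by
          rw [MulEquiv.orderOf_eq, ← hK6]
          exact Subgroup.orderOf_dvd_natCard K hw
        have h2 : ((e w : N) : N ⧸ K) = 1 := by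
          have hq : Nat.card (N ⧸ K) = 5 := by
            rw [← index_eq_card]
            have := K.index_mul_card
            rw [hK6, hN30] at this
            omega
          refine orderOf_eq_one_iff.1 (Nat.eq_one_of_dvd_coprimes (a := 6) (b := 5) (by norm_num)
            ((orderOf_map_dvd (QuotientGroup.mk' K) _).trans h1) ?_)
          exact (_root_.orderOf_dvd_natCard _).trans (dvd_of_eq hq)
        exact hne ((QuotientGroup.eq_one_iff _).1 h2)
      haveI := hKc
      exact no_small_normal h h6 (K.map N.subtype) (Or.inl (by rw [card_map_of_injective N.subtype_injective, hK6]))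
    · exact Or.inr ((card_eq_iff_eq_top N).1 (hN60.trans h.symm))
  · -- `N` has order dividing 12
    have hdvd : Nat.card N ∣ 12 := by
      have := N.card_subgroup_dvd_card
      rw [h, show (60 : ℕ) = 5 * 12 by norm_num] at this
      exact ((Nat.prime_five.coprime_iff_not_dvd.2 hd).symm).dvd_of_dvd_mul_left this
    by_cases h1 : Nat.card N = 1
    · exact Or.inl ((Subgroup.card_eq_one).1 h1)
    exfalso
    have hcases : Nat.card N = 2 ∨ Nat.card N = 3 ∨ Nat.card N = 4 ∨ Nat.card N = 6 ∨ Nat.card N = 12 := by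
      have hne0 : Nat.card N ≠ 0 := Nat.card_pos.ne'
      have := Nat.le_of_dvd (by norm_num) hdvd
      interval_cases hc : Nat.card N <;> simp_all
    have hsmall : Nat.card N = 2 ∨ Nat.card N = 3 ∨ Nat.card N = 4 := by
      rcases hcases with h' | h' | h' | h' | h'
      · exact Or.inl h'
      · exact Or.inr (Or.inl h')
      · exact Or.inr (Or.inr h')
      · exact absurd (no_small_normal h h6 N (Or.inl h')) id
      · exact absurd (no_small_normal h h6 N (Or.inr h')) id
    -- an element of order 5 centralizes `N`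
    obtain ⟨x, hx⟩ := exists_prime_orderOf_dvd_card' (G := G) 5 (by rw [h]; norm_num)
    let Φ : G →* Equiv.Perm N :=
      { toFun := fun g => (MulAut.conjNormal g : MulAut N).toEquiv
        map_one' := by ext n; simp
        map_mul' := fun a b => by ext n; simp [mul_assoc] }
    have hΦ : Φ x = 1 := by
      refine orderOf_eq_one_iff.1 (Nat.eq_one_of_dvd_coprimes (a := 5) (b := (Nat.card N).factorial) ?_
        ((orderOf_map_dvd Φ x).trans (dvd_of_eq hx)) ?_)
      · rw [Nat.prime_five.coprime_iff_not_dvd, Nat.prime_five.dvd_factorial]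
        omega
      · rw [← Nat.card_perm]
        exact _root_.orderOf_dvd_natCard _
    let Y : Sylow 5 G := Sylow.ofCard (zpowers x) (by
      rw [Nat.card_zpowers, hx, h]
      have : Nat.factorization 60 5 = 1 := by
        rw [show 60 = 5 * 12 by norm_num, Nat.factorization_mul (by norm_num) (by norm_num),
          Finsupp.add_apply, Nat.Prime.factorization_self Nat.prime_five,
          Nat.factorization_eq_zero_of_not_dvd (by norm_num)]
      rw [this, pow_one])
    have hNle : N ≤ normalizer ((Y : Subgroup G) : Set G) := by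
      intro z hz
      have h3 : x * z * x⁻¹ = z := by
        have := congrArg Subtype.val (Equiv.congr_fun hΦ ⟨z, hz⟩)
        simpa [Φ] using this
      have hYeq : (Y : Subgroup G) = zpowers x := Sylow.coe_ofCard _ _
      rw [hYeq, mem_normalizer_iff_map_conj_eq, MonoidHom.map_zpowers]
      congr 1
      show z * x * z⁻¹ = x
      rw [← (mul_inv_eq_iff_eq_mul.1 h3), mul_inv_cancel_right]
    have hn10 : Nat.card (normalizer ((Y : Subgroup G) : Set G)) = 10 := by
      have := SmallGroups.card_sylow_mul_card_normalizer Y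
      rw [h6, h] at this
      omega
    rcases hsmall with h' | h' | h'
    · -- central involution
      have hsupY : (Y : Subgroup G) ⊔ N = normalizer ((Y : Subgroup G) : Set G) := by
        refine eq_of_le_of_card_ge (sup_le le_normalizer hNle) ?_
        rw [hn10]
        refine Nat.le_of_dvd Nat.card_pos ?_
        rw [show (10 : ℕ) = 5 * 2 by norm_num]
        refine Nat.Coprime.mul_dvd_of_dvd_of_dvd (by norm_num) ?_ ?_
        · exact (dvd_of_eq (card_sylow_five Y h).symm).trans (card_dvd_of_le le_sup_left)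
        · exact (dvd_of_eq h'.symm).trans (card_dvd_of_le le_sup_right)
      haveI : IsCyclic (Y : Subgroup G) := isCyclic_of_prime_card (card_sylow_five Y h)
      haveI : IsMulCommutative (Y : Subgroup G) := IsCyclic.isMulCommutative
      have hcen : normalizer ((Y : Subgroup G) : Set G) ≤ centralizer ((Y : Subgroup G) : Set G) := by
        rw [← hsupY]
        refine sup_le (Subgroup.le_centralizer _) fun z hz => ?_
        have h3 : x * z * x⁻¹ = z := by
          have := congrArg Subtype.val (Equiv.congr_fun hΦ ⟨z, hz⟩)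
          simpa [Φ] using this
        intro w hw
        have hYeq : (Y : Subgroup G) = zpowers x := Sylow.coe_ofCard _ _
        rw [hYeq] at hw
        obtain ⟨i, rfl⟩ := mem_zpowers_iff.1 hw
        exact ((show Commute x z from mul_inv_eq_iff_eq_mul.1 h3).zpow_left i).eq
      have hcomp := MonoidHom.ker_transferSylow_isComplement' Y hcen
      have h12 : Nat.card (MonoidHom.transferSylow Y hcen).ker = 12 := by
        have := hcomp.card_mul_card
        rw [card_sylow_five Y h, h] at this
        omega
      exact no_small_normal h h6 (MonoidHom.transferSylow Y hcen).ker (Or.inr h12)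
    · have := card_dvd_of_le hNle
      rw [h', hn10] at this
      norm_num at this
    · have := card_dvd_of_le hNle
      rw [h', hn10] at this
      norm_num at this

theorem iso_alternating {G : Type*} [Group G] [Finite G] (h : Nat.card G = 60)
    (hdeg : Cfsg.degreePrimes G = Cfsg.degreePrimes (alternatingGroup (Fin 5))) :
    Nonempty (G ≃* alternatingGroup (Fin 5)) := by
  haveI : Fact (Nat.Prime 5) := ⟨Nat.prime_five⟩
  have hA : Nat.card (alternatingGroup (Fin 5)) = 60 := by
    have : 2 * Nat.card (alternatingGroup (Fin 5)) = (5 : ℕ).factorial := by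
      rw [two_mul_nat_card_alternatingGroup, Nat.card_perm, Nat.card_fin]
    rw [show (5 : ℕ).factorial = 120 from rfl] at this
    omega
  have hA6 : Nat.card (Sylow 5 (alternatingGroup (Fin 5))) = 6 := by
    refine (card_sylow_five_eq hA).resolve_left fun h1 => ?_
    obtain ⟨P⟩ := Sylow.nonempty (p := 5) (G := alternatingGroup (Fin 5))
    haveI : Subsingleton (Sylow 5 (alternatingGroup (Fin 5))) := (Nat.card_eq_one_iff_unique.1 h1).1
    haveI hn : (P : Subgroup (alternatingGroup (Fin 5))).Normal := P.normal_of_subsingleton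
    have hP := card_sylow_five P hA
    rcases hn.eq_bot_or_eq_top with hb | ht
    · rw [hb, card_bot] at hP; omega
    · rw [ht, card_top, hA] at hP; omega
  have h5 : 5 ∈ Cfsg.degreePrimes G := hdeg ▸ five_mem_degreePrimes hA6 fun P => card_sylow_five P hA
  have h6 : Nat.card (Sylow 5 G) = 6 := by
    refine (card_sylow_five_eq h).resolve_left fun h1 => ?_
    obtain ⟨P⟩ := Sylow.nonempty (p := 5) (G := G)
    haveI : Subsingleton (Sylow 5 G) := (Nat.card_eq_one_iff_unique.1 h1).1
    haveI : (P : Subgroup G).Normal := P.normal_of_subsingleton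
    exact five_not_mem_degreePrimes h P (card_sylow_five P h) h5
  haveI := isSimple_of_six h h6
  exact Linear.simple_order_sixty_iso h

end Cfsg.Agent.DegreeSixty
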