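import Cfsg.Agent.S0550
import Cfsg.Agent.S0721
import Cfsg.Agent.Perm.Regular
import Cfsg.Agent.Suborbit.Basic

/-! The socle of a finite primitive permutation group. -/

set_option autoImplicit false
set_option linter.style.haveILetI false

namespace Cfsg.Agent.Suborbit

open MulAction

variable {G : Type*} [Group G] [Finite G]

theorem exists_minimal_normal_le [Nontrivial G] : ∃ N : Subgroup G, N.Normal ∧ N ≠ ⊥ ∧
    ∀ M : Subgroup G, M.Normal → M ≤ N → M = ⊥ ∨ M = N := by
  obtain ⟨N, ⟨hN, hN1⟩, hmin⟩ := (Set.toFinite {N : Subgroup G | N.Normal ∧ N ≠ ⊥}).exists_minimal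
    ⟨⊤, inferInstance, top_ne_bot⟩
  exact ⟨N, hN, hN1, fun M hM hMN => or_iff_not_imp_left.2 fun hM1 => le_antisymm hMN (hmin ⟨hM, hM1⟩ hMN)⟩

theorem mul_pow_eq_one_of_simple_pi {N T : Type*} [Group N] [Group T] [Finite T] [IsSimpleGroup T]
    {m : ℕ} (e : N ≃* (Fin m → T)) (hT : IsMulCommutative T) :
    ∃ p : ℕ, p.Prime ∧ IsMulCommutative N ∧ ∀ x : N, x ^ p = 1 := by
  letI : CommGroup T := { (inferInstance : Group T) with mul_comm := fun a b => hT.is_comm.comm a b }
  have hp : (Nat.card T).Prime := IsSimpleGroup.prime_card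
  refine ⟨_, hp, ⟨⟨fun a b => e.injective (by rw [map_mul, map_mul, mul_comm])⟩⟩, fun x => e.injective ?_⟩
  rw [map_pow, map_one]
  funext i
  exact pow_card_eq_one'

variable {Ω : Type*} [MulAction G Ω] [FaithfulSMul G Ω]

theorem socle_primitive (hprim : IsPreprimitive G Ω) (N : Subgroup G)
    (hN : N = sSup {V : Subgroup G | V.Normal ∧ V ≠ ⊥ ∧ ∀ M : Subgroup G, M.Normal → M ≤ V → M = ⊥ ∨ M = V}) :
    (∃ p : ℕ, p.Prime ∧ IsMulCommutative N ∧ (∀ x : N, x ^ p = 1) ∧
      IsPretransitive N Ω ∧ ∀ ω : Ω, stabilizer N ω = ⊥) ∨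
    (∃ (T : Type) (_ : Group T) (m : ℕ), 1 ≤ m ∧ IsSimpleGroup T ∧ ¬ IsMulCommutative T ∧
      Nonempty (N ≃* (Fin m → T))) := by
  haveI := hprim
  rcases subsingleton_or_nontrivial G with hG | hG
  · left
    have hsub : Subsingleton N := inferInstance
    refine ⟨2, Nat.prime_two, ⟨⟨fun a b => Subsingleton.elim _ _⟩⟩, fun x => Subsingleton.elim _ _, ?_, ?_⟩
    · haveI := hprim.toIsPretransitive
      refine ⟨fun a b => ?_⟩
      obtain ⟨g, hg⟩ := exists_smul_eq G a b
      refine ⟨1, ?_⟩
      rw [one_smul, ← hg, Subsingleton.elim g 1, one_smul]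
    · exact fun ω => Subsingleton.elim _ _
  obtain ⟨ω₀, hω₀⟩ : ∃ ω : Ω, stabilizer G ω ≠ ⊤ := by
    by_contra h
    push Not at h
    obtain ⟨g, hg⟩ := exists_ne (1 : G)
    exact hg (eq_of_smul_eq_smul (α := Ω) fun ω => by
      rw [one_smul]; exact mem_stabilizer_iff.1 (h ω ▸ Subgroup.mem_top g))
  haveI : Nontrivial Ω := by
    by_contra h
    rw [not_nontrivial_iff_subsingleton] at h
    exact hω₀ (eq_top_iff.2 fun g _ => Subsingleton.elim _ _)
  have hU := IsPreprimitive.isCoatom_stabilizer_of_isPreprimitive (G := G) ω₀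
  have hcore : (stabilizer G ω₀).normalCore = ⊥ :=
    eq_bot_of_normal_of_le_stabilizer _ ω₀ (Subgroup.normalCore_le _)
  obtain ⟨A, hA, hA1, hAmin⟩ := exists_minimal_normal_le (G := G)
  obtain ⟨T, iT, m, hT, hm, ⟨e⟩⟩ := S0721.result A hA1 hAmin
  haveI := hT
  haveI : Finite (Fin m → T) := Finite.of_equiv A e.toEquiv
  haveI : Finite T := Finite.of_injective (fun t => (fun _ => t : Fin m → T)) fun a b h => congrFun h ⟨0, hm⟩
  by_cases hex : ∃ B : Subgroup G, B.Normal ∧ B ≠ ⊥ ∧ (∀ M : Subgroup G, M.Normal → M ≤ B → M = ⊥ ∨ M = B) ∧ A ≠ B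
  · obtain ⟨B, hB, hB1, hBmin, hAB⟩ := hex
    obtain ⟨hCB, hCA, -, -, hnc, ⟨eAB⟩, -⟩ := S0550.result _ hU hcore A B hA1 hB1 hAmin hBmin hAB
    have hNeq : N = A ⊔ B := by
      rw [hN]
      refine le_antisymm (sSup_le ?_) (sup_le (le_sSup ⟨hA, hA1, hAmin⟩) (le_sSup ⟨hB, hB1, hBmin⟩))
      rintro C ⟨hC, hC1, hCmin⟩
      haveI := hC
      by_cases hAC : A = C
      · exact hAC ▸ le_sup_left
      · obtain ⟨-, hCA', -, -, -, -, -⟩ := S0550.result _ hU hcore A C hA1 hC1 hAmin hCmin hAC
        rw [← hCA', hCA]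
        exact le_sup_right
    have hAB' : A ⊓ B = ⊥ := by
      rcases hAmin (A ⊓ B) inferInstance inf_le_left with h | h
      · exact h
      · rcases hBmin A hA (h ▸ inf_le_right) with h' | h'
        · exact absurd h' hA1
        · exact absurd h' hAB
    have hcomm : ∀ (a : A) (b : B), Commute (A.subtype a) (B.subtype b) := fun a b =>
      Subgroup.commute_of_normal_of_disjoint A B hA hB (disjoint_iff.2 hAB') _ _ a.2 b.2
    let φ : A × B →* G := A.subtype.noncommCoprod B.subtype hcomm
    have hφ : Function.Injective φ := by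
      rw [MonoidHom.noncommCoprod_injective]
      exact ⟨A.subtype_injective, B.subtype_injective, by simpa using disjoint_iff.2 hAB'⟩
    have hrange : φ.range = N := by
      rw [MonoidHom.noncommCoprod_range, Subgroup.range_subtype, Subgroup.range_subtype, hNeq]
    right
    refine ⟨T, iT, m + m, by omega, hT, fun hc => hnc ?_, ⟨?_⟩⟩
    · exact ⟨⟨fun a b => e.injective (by rw [map_mul, map_mul]; funext i; exact hc.is_comm.comm _ _)⟩⟩
    · exact (MulEquiv.subgroupCongr hrange.symm).trans ((MonoidHom.ofInjective hφ).symm.trans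
        ((MulEquiv.prodCongr e (eAB.symm.trans e)).trans
          { toFun := fun fg => Fin.append fg.1 fg.2
            invFun := fun h => (fun i => h (Fin.castAdd m i), fun i => h (Fin.natAdd m i))
            left_inv := fun fg => by ext i <;> simp only [Fin.append_left, Fin.append_right]
            right_inv := fun h => by
              funext i
              refine Fin.addCases (fun i => ?_) (fun i => ?_) i <;>
                simp only [Fin.append_left, Fin.append_right, Pi.mul_apply, Prod.fst_mul, Prod.snd_mul]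
            map_mul' := fun fg fg' => by
              funext i
              refine Fin.addCases (fun i => ?_) (fun i => ?_) i <;>
                simp only [Fin.append_left, Fin.append_right, Pi.mul_apply, Prod.fst_mul, Prod.snd_mul] }))
  · push Not at hex
    have hNA : N = A := by
      rw [hN]
      refine le_antisymm (sSup_le ?_) (le_sSup ⟨hA, hA1, hAmin⟩)
      rintro C ⟨hC, hC1, hCmin⟩
      exact (hex C hC hC1 hCmin).ge
    subst hNA
    by_cases hc : IsMulCommutative T
    · left
      obtain ⟨p, hp, hNc, hpow⟩ := mul_pow_eq_one_of_simple_pi e hc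
      have htr := PermLib.isPretransitive_of_normal_ne_bot (α := Ω) hA1
      exact ⟨p, hp, hNc, hpow, htr, fun ω => PermLib.stabilizer_eq_bot_of_isMulCommutative hNc ω⟩
    · exact Or.inr ⟨T, iT, m, hm, hT, hc, ⟨e⟩⟩

end Cfsg.Agent.Suborbit
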