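import Cfsg.Agent.Suborbit.Basic

set_option autoImplicit false

namespace Cfsg.Agent.Suborbit

open MulAction

variable {G : Type*} [Group G]

/-- The homomorphism out of a dihedral group given by a rotation and a reflection. -/
def dihedralHom {n : ℕ} (x t : G) (hx : x ^ n = 1) (ht : t * t = 1) (hc : t * x * t = x⁻¹) :
    DihedralGroup n →* G :=
  have key : ∀ i : ℤ, x ^ i * t = t * x ^ (-i) := fun i => by
    have h : SemiconjBy t x x⁻¹ := by
      rw [SemiconjBy, ← hc, mul_assoc (t * x), ht, mul_one]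
    have h' : t * x ^ (-i) = x⁻¹ ^ (-i) * t := h.zpow_right (-i)
    rw [h', inv_zpow, zpow_neg, inv_inv]
  let φ : ℤ → G := fun i => x ^ i
  have hφ : ∀ i j : ℤ, (i : ZMod n) = (j : ZMod n) → φ i = φ j := fun i j hij => by
    obtain ⟨k, hk⟩ := (ZMod.intCast_eq_intCast_iff_dvd_sub i j n).1 hij
    have : j = i + (n : ℤ) * k := by omega
    simp [φ, this, zpow_add, zpow_mul, hx]
  { toFun := fun d => match d with
      | .r i => x ^ (i.cast : ℤ)
      | .sr i => t * x ^ (i.cast : ℤ)
    map_one' := by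
      show x ^ ((0 : ZMod n).cast : ℤ) = 1
      simp
    map_mul' := by
      rintro (i | i) (j | j)
      · rw [DihedralGroup.r_mul_r]
        show φ ((i + j).cast) = x ^ (i.cast : ℤ) * x ^ (j.cast : ℤ)
        rw [hφ _ ((i.cast : ℤ) + (j.cast : ℤ)) (by simp)]
        exact zpow_add ..
      · rw [DihedralGroup.r_mul_sr]
        show t * φ ((j - i).cast) = x ^ (i.cast : ℤ) * (t * x ^ (j.cast : ℤ))
        rw [← mul_assoc, key, mul_assoc, ← zpow_add,
          hφ _ (-(i.cast : ℤ) + (j.cast : ℤ)) (by simp; ring)]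
      · rw [DihedralGroup.sr_mul_r]
        show t * φ ((i + j).cast) = t * x ^ (i.cast : ℤ) * x ^ (j.cast : ℤ)
        rw [mul_assoc, ← zpow_add, hφ _ ((i.cast : ℤ) + (j.cast : ℤ)) (by simp)]
      · rw [DihedralGroup.sr_mul_sr]
        show φ ((j - i).cast) = t * x ^ (i.cast : ℤ) * (t * x ^ (j.cast : ℤ))
        rw [mul_assoc t, ← mul_assoc (x ^ (i.cast : ℤ)), key, mul_assoc t, ← mul_assoc t t, ht,
          one_mul, ← zpow_add, hφ _ (-(i.cast : ℤ) + (j.cast : ℤ)) (by simp; ring)] }

theorem dihedralHom_r_one {n : ℕ} (x t : G) (hx : x ^ n = 1) (ht : t * t = 1)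
    (hc : t * x * t = x⁻¹) : dihedralHom x t hx ht hc (.r 1) = x := by
  show x ^ ((1 : ZMod n).cast : ℤ) = x
  have h : (((1 : ZMod n).cast : ℤ) : ZMod n) = ((1 : ℤ) : ZMod n) := by simp
  obtain ⟨k, hk⟩ := (ZMod.intCast_eq_intCast_iff_dvd_sub _ _ n).1 h
  have : ((1 : ZMod n).cast : ℤ) = 1 + (n : ℤ) * (-k) := by linarith
  simp [this, zpow_add, zpow_mul, hx]

theorem dihedralHom_sr_zero {n : ℕ} (x t : G) (hx : x ^ n = 1) (ht : t * t = 1)
    (hc : t * x * t = x⁻¹) : dihedralHom x t hx ht hc (.sr 0) = t := by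
  show t * x ^ ((0 : ZMod n).cast : ℤ) = t
  simp

variable {Ω : Type*} [MulAction G Ω]

/-- A finite primitive group with a suborbit of length two is dihedral of order twice a prime. -/
theorem dihedral_of_suborbit_two [Finite G] [FaithfulSMul G Ω] (hprim : IsPreprimitive G Ω)
    (a b : Ω) (h2 : Nat.card (orbit (stabilizer G a) b) = 2) :
    Nat.card (stabilizer G a) = 2 ∧ ∃ p : ℕ, p.Prime ∧ Nonempty (G ≃* DihedralGroup p) := by
  have := hprim
  have hab : a ≠ b := by
    rintro rfl
    have : orbit (stabilizer G a) a = {a} := by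
      ext y
      constructor
      · rintro ⟨g, rfl⟩; exact g.2
      · rintro rfl; exact mem_orbit_self _
    rw [this] at h2
    simp at h2
  have hne : ¬ stabilizer G b ≤ stabilizer G a := by
    intro h
    have hbot := stabilizer_le_stabilizer hprim b a hab.symm h
    have h1 := card_paired_orbit (G := G) a b
    have h3 := card_stabilizer_eq_orbit_mul (G := G) b a
    rw [h1, h2, hbot] at h3
    simp at h3
  set K := stabilizer G a ⊓ stabilizer G b with hKdef
  have hia : (K.subgroupOf (stabilizer G a)).index = 2 := (card_stabilizer_inf_relIndex a b).trans h2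
  have hib : (K.subgroupOf (stabilizer G b)).index = 2 := by
    rw [hKdef, inf_comm, card_stabilizer_inf_relIndex, card_paired_orbit, h2]
  have hna : stabilizer G a ≤ Subgroup.normalizer (K : Set G) :=
    (Subgroup.normal_subgroupOf_iff_le_normalizer inf_le_left).1 (Subgroup.normal_of_index_eq_two hia)
  have hnb : stabilizer G b ≤ Subgroup.normalizer (K : Set G) :=
    (Subgroup.normal_subgroupOf_iff_le_normalizer inf_le_right).1 (Subgroup.normal_of_index_eq_two hib)
  have hK : K = ⊥ := eq_bot_of_normalized hprim K a b inf_le_left hne hna hnb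
  have hcard : Nat.card (stabilizer G a) = 2 := by
    rw [card_stabilizer_eq_orbit_mul a b, ← hKdef, hK, Subgroup.card_bot, h2]
  refine ⟨hcard, ?_⟩
  have hcardb : Nat.card (stabilizer G b) = 2 := by rw [card_stabilizer_eq b a, hcard]
  have : Nontrivial Ω := ⟨a, b, hab⟩
  have hc := IsPreprimitive.isCoatom_stabilizer_of_isPreprimitive (G := G) a
  obtain ⟨t, htH⟩ := exists_prime_orderOf_dvd_card' (G := stabilizer G a) 2 (by rw [hcard])
  obtain ⟨s, hsH⟩ := exists_prime_orderOf_dvd_card' (G := stabilizer G b) 2 (by rw [hcardb])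
  have ht2 : orderOf (t : G) = 2 := by rw [Subgroup.orderOf_coe, htH]
  have hs2 : orderOf (s : G) = 2 := by rw [Subgroup.orderOf_coe, hsH]
  have htop : Subgroup.zpowers (t : G) = stabilizer G a :=
    Subgroup.eq_of_le_of_card_ge (by rw [Subgroup.zpowers_le]; exact t.2)
      (by rw [Nat.card_zpowers, ht2, hcard])
  have hsb : Subgroup.zpowers (s : G) = stabilizer G b :=
    Subgroup.eq_of_le_of_card_ge (by rw [Subgroup.zpowers_le]; exact s.2)
      (by rw [Nat.card_zpowers, hs2, hcardb])
  have hsa : (s : G) ∉ stabilizer G a := fun h => hne (hsb ▸ Subgroup.zpowers_le.2 h)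
  have ht : (t : G) * t = 1 := by rw [← pow_two, ← ht2, pow_orderOf_eq_one]
  have hs : (s : G) * s = 1 := by rw [← pow_two, ← hs2, pow_orderOf_eq_one]
  set x := (t : G) * s with hxdef
  have hconj : (t : G) * x * t = x⁻¹ := by
    have ti : (t : G)⁻¹ = t := inv_eq_of_mul_eq_one_right ht
    have si : (s : G)⁻¹ = s := inv_eq_of_mul_eq_one_right hs
    rw [hxdef, mul_inv_rev, ti, si, ← mul_assoc, ht, one_mul]
  set n := orderOf x
  let φ := dihedralHom (n := n) x (t : G) (pow_orderOf_eq_one x) ht hconj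
  have hsur : Function.Surjective φ := by
    rw [← MonoidHom.range_eq_top]
    refine hc.2 _ ?_
    refine lt_of_le_of_ne ?_ ?_
    · rw [← htop, Subgroup.zpowers_le]
      exact ⟨_, dihedralHom_sr_zero x (t : G) _ ht hconj⟩
    · intro he
      apply hsa
      rw [he]
      have : (s : G) = (t : G) * x := by rw [hxdef, ← mul_assoc, ht, one_mul]
      rw [this]
      exact mul_mem ⟨_, dihedralHom_sr_zero x (t : G) _ ht hconj⟩
        ⟨_, dihedralHom_r_one x (t : G) _ ht hconj⟩
  have hsnt : (Subgroup.zpowers x) ≠ ⊤ := by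
    intro he
    have hnorm : (stabilizer G a).Normal := by
      refine ⟨fun u hu g => ?_⟩
      obtain ⟨i, rfl⟩ := Subgroup.mem_zpowers_iff.1 (he ▸ Subgroup.mem_top g : g ∈ Subgroup.zpowers x)
      obtain ⟨j, rfl⟩ := Subgroup.mem_zpowers_iff.1 (he ▸ Subgroup.mem_top u : u ∈ Subgroup.zpowers x)
      rwa [← zpow_add, ← zpow_neg, ← zpow_add, add_neg_cancel_comm]
    have := eq_bot_of_normal_of_le_stabilizer (stabilizer G a) a le_rfl
    rw [this, Subgroup.card_bot] at hcard
    omega
  have hnpos : 0 < n := orderOf_pos x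
  haveI : NeZero n := ⟨hnpos.ne'⟩
  haveI := Fintype.ofFinite G
  have hle : Nat.card G ≤ 2 * n := by
    rw [← DihedralGroup.nat_card (n := n)]
    exact Nat.card_le_card_of_surjective φ hsur
  have hge : 2 * n ≤ Nat.card G := by
    have h1 := (Subgroup.zpowers x).card_mul_index
    rw [Nat.card_zpowers] at h1
    have h2' : 2 ≤ (Subgroup.zpowers x).index := by
      have : (Subgroup.zpowers x).index ≠ 1 := fun h => hsnt (Subgroup.index_eq_one.1 h)
      have := Subgroup.index_ne_zero_of_finite (H := Subgroup.zpowers x)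
      omega
    rw [← h1]
    calc 2 * n = n * 2 := mul_comm _ _
      _ ≤ n * (Subgroup.zpowers x).index := Nat.mul_le_mul_left _ h2'
  have hG : Nat.card G = 2 * n := le_antisymm hle hge
  have hbij : Function.Bijective φ :=
    (Nat.bijective_iff_surjective_and_card _).2 ⟨hsur, by rw [DihedralGroup.nat_card, hG]⟩
  refine ⟨n, ?_, ⟨(MulEquiv.ofBijective φ hbij).symm⟩⟩
  have hx1 : x ≠ 1 := by
    intro h
    apply hsa
    have : (s : G) = t := by
      calc (s : G) = ((t : G) * t) * s := by rw [ht, one_mul]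
        _ = t * x := by rw [hxdef, mul_assoc]
        _ = t := by rw [h, mul_one]
    rw [this]; exact t.2
  have hn1 : n ≠ 1 := fun h => hx1 (orderOf_eq_one_iff.1 h)
  obtain ⟨q, hq, hqd⟩ := Nat.exists_prime_and_dvd hn1
  obtain ⟨m, hm⟩ := hqd
  suffices m = 1 by rw [hm, this, mul_one]; exact hq
  by_contra hm1
  set y := x ^ m
  have hoy : orderOf y = q := by
    rw [orderOf_pow, Nat.gcd_eq_right (by exact ⟨q, by rw [mul_comm]; exact hm⟩ : m ∣ orderOf x)]
    show n / m = q
    rw [hm, Nat.mul_div_cancel]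
    exact Nat.pos_of_ne_zero fun h => by rw [h, mul_zero] at hm; omega
  set L := Subgroup.zpowers y
  have hLn : stabilizer G a ≤ Subgroup.normalizer (L : Set G) := by
    rw [← htop, Subgroup.zpowers_le]
    have hty : (t : G) * y * (t : G)⁻¹ = y⁻¹ := by
      rw [show (t : G)⁻¹ = t from inv_eq_of_mul_eq_one_right ht]
      show (t : G) * x ^ m * t = (x ^ m)⁻¹
      have hsc : SemiconjBy (t : G) x x⁻¹ := by
        rw [SemiconjBy, ← hconj, mul_assoc ((t : G) * x), ht, mul_one]
      rw [(hsc.pow_right m).eq, mul_assoc, ht, mul_one, inv_pow]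
    intro u
    show u ∈ L ↔ (t : G) * u * (t : G)⁻¹ ∈ L
    have hzz : ∀ j : ℤ, (t : G) * y ^ j * (t : G)⁻¹ = y ^ (-j) := fun j => by
      rw [← conj_zpow, hty, inv_zpow, zpow_neg]
    constructor
    · intro hu
      obtain ⟨j, rfl⟩ := Subgroup.mem_zpowers_iff.1 hu
      rw [hzz]
      exact Subgroup.zpow_mem_zpowers y _
    · intro hu
      obtain ⟨j, hj⟩ := Subgroup.mem_zpowers_iff.1 hu
      have : u = (t : G)⁻¹ * y ^ j * (t : G) := by rw [hj]; group
      rw [this, show (t : G)⁻¹ = t from inv_eq_of_mul_eq_one_right ht]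
      nth_rewrite 2 [← show (t : G)⁻¹ = t from inv_eq_of_mul_eq_one_right ht]
      rw [hzz]
      exact Subgroup.zpow_mem_zpowers y _
  have htop2 : L ⊔ stabilizer G a = ⊤ := by
    refine hc.2 _ (lt_of_le_of_ne le_sup_right fun he => ?_)
    have hy : y ∈ stabilizer G a := by rw [he]; exact Subgroup.mem_sup_left (Subgroup.mem_zpowers y)
    have hLH : L ≤ stabilizer G a := Subgroup.zpowers_le.2 hy
    have hLc := Subgroup.card_le_of_le hLH
    rw [Nat.card_zpowers, hoy, hcard] at hLc
    have hq2 : q = 2 := le_antisymm hLc hq.two_le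
    have hLe : L = stabilizer G a :=
      Subgroup.eq_of_le_of_card_ge hLH (by rw [Nat.card_zpowers, hoy, hcard, hq2])
    have htL : (t : G) ∈ L := by rw [hLe]; exact t.2
    have htx : (t : G) ∈ Subgroup.zpowers x :=
      (Subgroup.zpowers_le.2 (Subgroup.npow_mem_zpowers x m)) htL
    refine hsnt (eq_top_iff.2 fun g _ => ?_)
    obtain ⟨d, rfl⟩ := hsur g
    cases d with
    | r i => exact Subgroup.zpow_mem_zpowers x _
    | sr i => exact mul_mem htx (Subgroup.zpow_mem_zpowers x _)
  have hnorm : Subgroup.normalizer (L : Set G) = ⊤ := by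
    rw [eq_top_iff, ← htop2]
    exact sup_le Subgroup.le_normalizer hLn
  haveI : L.Normal := Subgroup.normalizer_eq_top_iff.1 hnorm
  have hprod : Nat.card G ≤ Nat.card L * Nat.card (stabilizer G a) := by
    rw [← Nat.card_prod]
    refine Nat.card_le_card_of_surjective (fun p : L × stabilizer G a => (p.1 : G) * (p.2 : G)) fun g => ?_
    have hg : g ∈ L ⊔ stabilizer G a := htop2 ▸ Subgroup.mem_top g
    obtain ⟨l, hl, u, hu, rfl⟩ := Subgroup.mem_sup_of_normal_left.1 hg
    exact ⟨(⟨l, hl⟩, ⟨u, hu⟩), rfl⟩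
  rw [Nat.card_zpowers, hoy, hcard, hG, hm] at hprod
  have : 2 ≤ m := by
    rcases m with _ | _ | m
    · rw [mul_zero] at hm; omega
    · omega
    · omega
  nlinarith [hq.two_le]

end Cfsg.Agent.Suborbit
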