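import Cfsg.Agent.Suborbit.AltPerm
import Cfsg.Agent.Suborbit.Cores
import Cfsg.Agent.Lib.MinimalNormal

/-!
A suborbit on which the stabiliser induces at least the alternating group, with non-trivial kernel.
-/

set_option autoImplicit false
set_option linter.style.haveILetI false

namespace Cfsg.Agent.Suborbit

open Equiv Equiv.Perm Cfsg.Agent.ClassicalMax

variable {G : Type*} [Group G]

theorem mem_coreOf {M X : Subgroup G} {x : G} :
    x ∈ coreOf M X ↔ x ∈ M ∧ ∀ m ∈ M, m * x * m⁻¹ ∈ X := by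
  constructor
  · rintro ⟨y, hy, rfl⟩
    exact ⟨y.2, fun m hm => hy ⟨m, hm⟩⟩
  · rintro ⟨hxM, h⟩
    exact ⟨⟨x, hxM⟩, fun m => h m m.2, rfl⟩

/-- One end of an arc: the action of `A` on the cosets of `A ⊓ B`. -/
structure Arm (A B : Subgroup G) (d : ℕ) where
  /-- the action -/
  σ : A →* Equiv.Perm (Fin d)
  /-- the point fixed by `A ⊓ B` -/
  pt : Fin d
  stab : ∀ x : A, σ x pt = pt ↔ (x : G) ∈ B
  trans : ∀ i : Fin d, ∃ x : A, σ x pt = i

namespace Arm

variable {A B : Subgroup G} {d : ℕ} (P : Arm A B d)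

/-- The induced group contains the alternating group. -/
def Big : Prop := alternatingGroup (Fin d) ≤ P.σ.range

/-- The kernel. -/
def ker1 (_ : Arm A B d) : Subgroup G := coreOf A (A ⊓ B)

theorem mem_ker1 (x : A) : (x : G) ∈ P.ker1 ↔ P.σ x = 1 := by
  rw [ker1, mem_coreOf]
  constructor
  · rintro ⟨-, h⟩
    ext i
    obtain ⟨y, rfl⟩ := P.trans i
    have h1 : (y⁻¹ * x * y : A).1 ∈ B := by simpa using (h (y⁻¹ : A) (y⁻¹ : A).2).2
    have h2 := (P.stab _).2 h1
    rw [map_mul, map_mul, map_inv, Perm.mul_apply, Perm.mul_apply, Perm.inv_eq_iff_eq] at h2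
    rw [h2, Perm.one_apply]
  · intro h
    refine ⟨x.2, fun m hm => Subgroup.mem_inf.2 ⟨mul_mem (mul_mem hm x.2) (inv_mem hm), ?_⟩⟩
    have : P.σ ((⟨m, hm⟩ : A) * x * (⟨m, hm⟩ : A)⁻¹) P.pt = P.pt := by
      rw [map_mul, map_mul, h, mul_one, ← map_mul, mul_inv_cancel, map_one, Perm.one_apply]
    exact (P.stab _).1 this

theorem ker1_le (P : Arm A B d) : P.ker1 ≤ A ⊓ B := coreOf_le _ _

theorem ker1_conj {m x : G} (hm : m ∈ A) (hx : x ∈ P.ker1) : m * x * m⁻¹ ∈ P.ker1 :=
  (Subgroup.mem_normalizer_iff.1 (le_normalizer_coreOf A (A ⊓ B) hm) x).1 hx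

/-- The inclusion of the arc stabiliser. -/
def incl (_ : Arm A B d) : (A ⊓ B : Subgroup G) →* A := Subgroup.inclusion inf_le_left

theorem fix_pt (x : (A ⊓ B : Subgroup G)) : P.σ (P.incl x) P.pt = P.pt := (P.stab _).2 x.2.2

/-- A numbering of the remaining points. -/
noncomputable def others : {j : Fin d // j ≠ P.pt} ≃ Fin (d - 1) :=
  Fintype.equivFinOfCardEq (by
    rw [Fintype.card_subtype_compl, Fintype.card_fin, Fintype.card_subtype_eq])

/-- The action of the arc stabiliser on the remaining points. -/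
noncomputable def π : (A ⊓ B : Subgroup G) →* Equiv.Perm (Fin (d - 1)) :=
  P.others.permCongrHom.toMonoidHom.comp
    { toFun := fun x => (P.σ (P.incl x)).subtypePerm fun j => by
        constructor
        · intro h e
          exact h (by rw [e, P.fix_pt])
        · intro h e
          exact h ((P.σ (P.incl x)).injective (e.trans (P.fix_pt x).symm))
      map_one' := by ext j; simp
      map_mul' := fun x y => Equiv.ext fun j => Subtype.ext (by
        show P.σ (P.incl (x * y)) j.1 = P.σ (P.incl x) (P.σ (P.incl y) j.1)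
        rw [map_mul, map_mul]
        rfl) }

theorem π_apply (x : (A ⊓ B : Subgroup G)) (j : {j : Fin d // j ≠ P.pt}) :
    P.π x (P.others j) = P.others ⟨P.σ (P.incl x) j.1, fun e =>
      j.2 ((P.σ (P.incl x)).injective (e.trans (P.fix_pt x).symm))⟩ := by
  refine congrArg P.others (Subtype.ext ?_)
  show P.σ (P.incl x) (P.others.symm (P.others j)).1 = _
  rw [Equiv.symm_apply_apply]

theorem π_eq_one (x : (A ⊓ B : Subgroup G)) : P.π x = 1 ↔ (x : G) ∈ P.ker1 := by
  rw [show (x : G) = (P.incl x : G) from rfl, P.mem_ker1]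
  constructor
  · intro h
    ext i
    by_cases hi : i = P.pt
    · subst hi; rw [P.fix_pt, Perm.one_apply]
    · have h1 := P.π_apply x ⟨i, hi⟩
      rw [h, Perm.one_apply] at h1
      have h2 := congrArg (fun j : {j // j ≠ P.pt} => (j.1 : ℕ)) (P.others.injective h1)
      simpa using h2.symm
  · intro h
    ext k
    obtain ⟨j, rfl⟩ := P.others.surjective k
    rw [P.π_apply, Perm.one_apply]
    have h' : P.σ (P.incl x) j.1 = j.1 := by rw [h]; rfl
    exact congrArg Fin.val (congrArg P.others (Subtype.ext h'))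

theorem sign_π (x : (A ⊓ B : Subgroup G)) : sign (P.π x) = sign (P.σ (P.incl x)) := by
  simp only [π, MonoidHom.coe_comp, MonoidHom.coe_mk, OneHom.coe_mk, Function.comp_apply,
    MulEquiv.coe_toMonoidHom]
  refine (sign_permCongr P.others _).trans ?_
  rw [sign_subtypePerm]
  intro j hj e
  exact hj (by rw [e, P.fix_pt])

theorem π_range (hP : P.Big) : alternatingGroup (Fin (d - 1)) ≤ P.π.range := by
  intro a ha
  let p : Perm {j : Fin d // j ≠ P.pt} := P.others.symm.permCongr a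
  have hp : Perm.ofSubtype p ∈ alternatingGroup (Fin d) := by
    rw [mem_alternatingGroup, sign_ofSubtype, sign_permCongr, mem_alternatingGroup.1 ha]
  obtain ⟨x, hx⟩ := hP hp
  have hfix : P.σ x P.pt = P.pt := by
    rw [hx]; exact Perm.ofSubtype_apply_of_not_mem p (fun h => h rfl)
  refine ⟨⟨x, x.2, (P.stab x).1 hfix⟩, ?_⟩
  ext k
  obtain ⟨j, rfl⟩ := P.others.surjective k
  rw [P.π_apply]
  have h1 : (P.σ x) j.1 = (p j : Fin d) := by rw [hx, Perm.ofSubtype_apply_coe]
  rw [show P.others ⟨P.σ (P.incl ⟨x, x.2, (P.stab x).1 hfix⟩) j.1, _⟩ = P.others (p j) from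
    congrArg P.others (Subtype.ext h1)]
  show ((P.others (P.others.symm.permCongr a j)) : ℕ) = _
  rw [Equiv.permCongr_apply, Equiv.apply_symm_apply, Equiv.symm_symm]

theorem π_relIndex [Finite G] (X : Subgroup (A ⊓ B : Subgroup G)) :
    (P.π.ker).relIndex X ≤ (d - 1).factorial := by
  rw [Subgroup.relIndex_ker]
  refine (Subgroup.card_le_card_group _).trans ?_
  rw [Nat.card_perm, Nat.card_fin]

/-- The image of a subgroup of the arc stabiliser normalised by it. -/
theorem le_ker1_or_alt_le (hd : 6 ≤ d) (hP : P.Big) {N : Subgroup G} (hN : N ≤ A ⊓ B)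
    (hn : ∀ k ∈ A ⊓ B, ∀ n ∈ N, k * n * k⁻¹ ∈ N) :
    N ≤ P.ker1 ∨ alternatingGroup (Fin (d - 1)) ≤ (N.subgroupOf (A ⊓ B)).map P.π := by
  by_cases h : (N.subgroupOf (A ⊓ B)).map P.π = ⊥
  · left
    intro n hn'
    have := (Subgroup.eq_bot_iff_forall _).1 h (P.π ⟨n, hN hn'⟩)
      (Subgroup.mem_map_of_mem P.π (show (⟨n, hN hn'⟩ : (A ⊓ B : Subgroup G)) ∈ N.subgroupOf (A ⊓ B) from hn'))
    exact (P.π_eq_one _).1 this
  · refine Or.inr (alt_le_of_normalized (by rw [Nat.card_fin]; omega) h ?_)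
    rintro a ha _ ⟨n, hn', rfl⟩
    obtain ⟨k, rfl⟩ := P.π_range hP ha
    exact ⟨k * n * k⁻¹, hn k k.2 n hn', by simp⟩

/-- The hypothesis needed for `fitting_arc_eq_bot`: nilpotent normal subgroups act trivially. -/
theorem nilpotent_le_ker1 (hd : 6 ≤ d) (hP : P.Big) {X : Subgroup G} (hX : X ≤ A ⊓ B)
    (hnil : Group.IsNilpotent X) (hn : ∀ k ∈ A ⊓ B, ∀ n ∈ X, k * n * k⁻¹ ∈ X) : X ≤ P.ker1 := by
  refine (P.le_ker1_or_alt_le hd hP hX hn).resolve_right fun h => ?_
  refine not_isNilpotent_of_alt_le (by rw [Nat.card_fin]; omega) h ?_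
  haveI := hnil
  haveI : Group.IsNilpotent (X.subgroupOf (A ⊓ B)) :=
    Group.nilpotent_of_mulEquiv (Subgroup.subgroupOfEquivOfLe hX).symm
  exact Group.nilpotent_of_surjective (P.π.subgroupMap (X.subgroupOf (A ⊓ B)))
    (P.π.subgroupMap_surjective _)

end Arm

/-- The arc stabiliser has no abelian normal subgroup. -/
def NoAbelian (A B : Subgroup G) : Prop :=
  ∀ X : Subgroup G, X ≤ A ⊓ B → (∀ x ∈ X, ∀ y ∈ X, x * y = y * x) →
    (∀ k ∈ A ⊓ B, ∀ x ∈ X, k * x * k⁻¹ ∈ X) → X = ⊥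

/-- No non-trivial subgroup of the arc stabiliser is normalised by both ends. -/
def NoCommon (A B : Subgroup G) : Prop :=
  ∀ X : Subgroup G, X ≤ A ⊓ B → (∀ m ∈ A, ∀ x ∈ X, m * x * m⁻¹ ∈ X) →
    (∀ m ∈ B, ∀ x ∈ X, m * x * m⁻¹ ∈ X) → X = ⊥

theorem NoAbelian.symm {A B : Subgroup G} (h : NoAbelian A B) : NoAbelian B A := by
  unfold NoAbelian at h ⊢; rwa [inf_comm]

theorem NoCommon.symm {A B : Subgroup G} (h : NoCommon A B) : NoCommon B A := by
  intro X hX hB hA
  exact h X (by rwa [inf_comm]) hA hB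

/-- The second core. -/
def core2 (A B : Subgroup G) : Subgroup G := coreOf A (coreOf A (A ⊓ B) ⊓ coreOf B (B ⊓ A))

/-- The common part of the kernels. -/
def both (A B : Subgroup G) : Subgroup G := coreOf A (A ⊓ B) ⊓ coreOf B (B ⊓ A)

theorem both_comm (A B : Subgroup G) : both A B = both B A := inf_comm _ _

/-- An element of `T` structure: a normal alternating subgroup centralising the kernel. -/
structure AltPart {A B : Subgroup G} {d : ℕ} (P : Arm A B d) where
  /-- the subgroup -/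
  T : Subgroup G
  le : T ≤ A
  norm : ∀ m ∈ A, ∀ t ∈ T, m * t * m⁻¹ ∈ T
  comm : ∀ t ∈ T, ∀ x ∈ P.ker1, t * x = x * t
  inj : ∀ t ∈ T, t ∈ P.ker1 → t = 1
  image : (T.subgroupOf A).map P.σ = alternatingGroup (Fin d)

section

variable [Finite G] {A B : Subgroup G} {d : ℕ}

theorem Arm.ker_π (P : Arm A B d) : P.π.ker = P.ker1.subgroupOf (A ⊓ B) := by
  ext x
  rw [MonoidHom.mem_ker, P.π_eq_one, Subgroup.mem_subgroupOf]

theorem Arm.relIndex_ker1 (P : Arm A B d) :
    P.ker1.relIndex (A ⊓ B) = Nat.card P.π.range := by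
  rw [← Subgroup.index_ker, P.ker_π]
  rfl

theorem card_alt_half {n : ℕ} (h : 2 ≤ n) {R : Subgroup (Equiv.Perm (Fin n))}
    (hR : alternatingGroup (Fin n) ≤ R) : n.factorial ≤ 2 * Nat.card R := by
  haveI : Nontrivial (Fin n) := Fin.nontrivial_iff_two_le.2 h
  have h1 := two_mul_nat_card_alternatingGroup (α := Fin n)
  rw [Nat.card_perm, Nat.card_fin] at h1
  have := Subgroup.card_le_of_le hR
  omega

theorem kernel_not_le (hd : 6 ≤ d) (P : Arm A B d) (hP : P.Big) (Q : Arm B A d)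
    (hne : P.ker1 ≠ ⊥) (hc : NoCommon A B) : ¬ Q.ker1 ≤ P.ker1 := by
  intro hle
  set n := d - 1 with hn
  have hPK := P.ker1_le
  have hQK : Q.ker1 ≤ A ⊓ B := hle.trans hPK
  have h1 : n.factorial ≤ 2 * P.ker1.relIndex (A ⊓ B) := by
    rw [P.relIndex_ker1]; exact card_alt_half (by omega) (P.π_range hP)
  have h2 : Q.ker1.relIndex (A ⊓ B) ≤ n.factorial := by
    rw [inf_comm, Q.relIndex_ker1]
    refine (Subgroup.card_le_card_group _).trans ?_
    rw [Nat.card_perm, Nat.card_fin]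
  have h3 := Subgroup.relIndex_mul_relIndex Q.ker1 P.ker1 (A ⊓ B) hle hPK
  set M := (P.ker1.subgroupOf (B ⊓ A)).map Q.π with hM
  have hMc : Q.ker1.relIndex P.ker1 = Nat.card M := by
    rw [hM, ← Subgroup.relIndex_ker, Q.ker_π,
      Subgroup.relIndex_subgroupOf (hPK.trans (le_of_eq (inf_comm _ _)))]
  have hMne : M ≠ ⊥ := by
    intro hb
    apply hne
    have hle' : P.ker1 ≤ Q.ker1 := fun x hx => (Q.π_eq_one ⟨x, (inf_comm A B).le (hPK hx)⟩).1
      ((Subgroup.eq_bot_iff_forall _).1 hb _ (Subgroup.mem_map_of_mem Q.π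
        (show (⟨x, (inf_comm A B).le (hPK hx)⟩ : (B ⊓ A : Subgroup G)) ∈ P.ker1.subgroupOf (B ⊓ A) from hx)))
    refine hc _ hPK (fun m hm x hx => P.ker1_conj hm hx) fun m hm x hx => ?_
    exact hle (Q.ker1_conj hm (hle' hx))
  have hrange : alternatingGroup (Fin n) ≤ Q.π.range := by
    apply alternatingGroup_le_of_index_le_two
    have h4 := Q.π.range.card_mul_index
    have hr : Nat.card Q.π.range = Q.ker1.relIndex (A ⊓ B) := by
      rw [← Q.relIndex_ker1, inf_comm B A]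
    rw [Nat.card_perm, Nat.card_fin, hr, ← h3] at h4
    have hM2 : 2 ≤ Q.ker1.relIndex P.ker1 := by
      rw [hMc]
      haveI : Nontrivial M := (Subgroup.nontrivial_iff_ne_bot M).2 hMne
      exact Finite.one_lt_card
    have hpos := Nat.factorial_pos n
    by_contra hbig
    have h5 : 2 * P.ker1.relIndex (A ⊓ B) * 3 ≤
        Q.ker1.relIndex P.ker1 * P.ker1.relIndex (A ⊓ B) * Q.π.range.index :=
      Nat.mul_le_mul (Nat.mul_le_mul_right _ hM2) (by omega)
    rw [h4] at h5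
    rw [← hn] at h5
    linarith
  have halt : alternatingGroup (Fin n) ≤ M := by
    refine alt_le_of_normalized (by rw [Nat.card_fin]; omega) hMne ?_
    rintro a ha _ ⟨x, hx, rfl⟩
    obtain ⟨k, rfl⟩ := hrange ha
    exact ⟨k * x * k⁻¹, P.ker1_conj k.2.2 hx, by simp⟩
  have h5 := card_alt_half (by omega) halt
  rw [← hMc] at h5
  have h6 : n.factorial * n.factorial ≤
      2 * Q.ker1.relIndex P.ker1 * (2 * P.ker1.relIndex (A ⊓ B)) := Nat.mul_le_mul h5 h1
  have h7 : 120 ≤ n.factorial := le_trans (by decide : 120 ≤ Nat.factorial 5) (Nat.factorial_le (by omega))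
  rw [← h3] at h2
  nlinarith

/-- A kernel element outside the other kernel that centralises it. -/
theorem exists_centralizing (hd : 6 ≤ d) (P : Arm A B d) (hP : P.Big) (Q : Arm B A d)
    (hnle : ¬ Q.ker1 ≤ P.ker1) (h2 : core2 B A = ⊥) :
    ∃ c ∈ A ⊓ B, c ∉ P.ker1 ∧ ∀ x ∈ P.ker1, c * x = x * c := by
  set B1 := Q.ker1 with hB1
  have hB1K : B1 ≤ A ⊓ B := (Q.ker1_le).trans (le_of_eq (inf_comm _ _))
  haveI : Nontrivial B1 := (Subgroup.nontrivial_iff_ne_bot _).2 fun h => hnle (h ▸ bot_le)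
  obtain ⟨N0, hN0n, hN0ne, hN0min⟩ := MinNormal.exists_minimal_normal (G := B1)
  obtain ⟨y, hy, hy1⟩ := (Subgroup.bot_or_exists_ne_one N0).resolve_left hN0ne
  -- some conjugate of it is outside `P.ker1`
  obtain ⟨m, hm, hout⟩ : ∃ m ∈ B, ∃ w ∈ N0, m * (w : G) * m⁻¹ ∉ P.ker1 := by
    by_contra hcon
    push Not at hcon
    have : (y : G) ∈ core2 B A := by
      rw [core2, mem_coreOf]
      refine ⟨(hB1K y.2).2, fun m hm => ?_⟩
      exact Subgroup.mem_inf.2 ⟨Q.ker1_conj hm y.2, hcon m hm y hy⟩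
    rw [h2, Subgroup.mem_bot] at this
    exact hy1 (Subtype.ext this)
  let φ : MulAut B1 := Subgroup.normalizerMonoidHom (H := B1) ⟨m, le_normalizer_coreOf B (B ⊓ A) hm⟩
  let N : Subgroup B1 := N0.map φ.toMonoidHom
  haveI : N.Normal := Subgroup.Normal.map hN0n φ.toMonoidHom φ.surjective
  have hNout : ∃ w ∈ N, (w : G) ∉ P.ker1 := by
    obtain ⟨w, hw, hwout⟩ := hout
    exact ⟨φ w, ⟨w, hw, rfl⟩, hwout⟩
  have hNmin : ∀ L : Subgroup B1, L.Normal → L ≤ N → L = ⊥ ∨ L = N := by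
    intro L hL hLN
    haveI := hL
    have h1 : L.comap φ.toMonoidHom ≤ N0 := fun x hx => by
      obtain ⟨z, hz, e⟩ := hLN hx
      rwa [← φ.injective e]
    rcases hN0min _ inferInstance h1 with e | e
    · left
      rw [← Subgroup.map_comap_eq_self_of_surjective (f := φ.toMonoidHom) φ.surjective L, e, Subgroup.map_bot]
    · right
      rw [← Subgroup.map_comap_eq_self_of_surjective (f := φ.toMonoidHom) φ.surjective L, e]
  -- it meets `P.ker1` trivially
  haveI hXn : (P.ker1.subgroupOf B1).Normal := ⟨fun x hx b => P.ker1_conj (hB1K b.2).1 hx⟩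
  have hNX : ∀ w ∈ N, (w : G) ∈ P.ker1 → w = 1 := by
    intro w hw hwX
    rcases hNmin (N ⊓ P.ker1.subgroupOf B1) inferInstance inf_le_left with e | e
    · exact Subgroup.mem_bot.1 (e ▸ Subgroup.mem_inf.2 ⟨hw, hwX⟩)
    · exfalso
      obtain ⟨v, hv, hvX⟩ := hNout
      rw [← e] at hv
      exact hvX hv.2
  -- it is normalised by the arc stabiliser
  let NG : Subgroup G := N.map B1.subtype
  have hNGK : NG ≤ A ⊓ B := (Subgroup.map_subtype_le _).trans hB1K
  let ρ : B1 →* Equiv.Perm (Fin (d - 1)) := P.π.comp (Subgroup.inclusion hB1K)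
  have hρ : ∀ v, ρ v = 1 ↔ (v : G) ∈ P.ker1 := fun v => P.π_eq_one _
  have hB1alt : alternatingGroup (Fin (d - 1)) ≤ ρ.range := by
    have h := (P.le_ker1_or_alt_le hd hP hB1K fun k hk x hx => Q.ker1_conj hk.2 hx).resolve_left hnle
    refine h.trans ?_
    rintro _ ⟨v, hv, rfl⟩
    exact ⟨⟨v, hv⟩, rfl⟩
  have himage : ∀ M : Subgroup B1, M.Normal → (∃ w ∈ M, (w : G) ∉ P.ker1) →
      alternatingGroup (Fin (d - 1)) ≤ M.map ρ := by
    rintro M hMn ⟨w, hw, hwout⟩
    refine alt_le_of_normalized (by rw [Nat.card_fin]; omega) (fun h => hwout ((hρ w).1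
      ((Subgroup.eq_bot_iff_forall _).1 h _ (Subgroup.mem_map_of_mem ρ hw)))) ?_
    rintro a ha _ ⟨v, hv, rfl⟩
    obtain ⟨u, rfl⟩ := hB1alt ha
    exact ⟨u * v * u⁻¹, hMn.conj_mem v hv u, by simp⟩
  have hNnorm : ∀ k ∈ A ⊓ B, ∀ v ∈ NG, k * v * k⁻¹ ∈ NG := by
    rintro k hk _ ⟨v, hv, rfl⟩
    let ψ : MulAut B1 := Subgroup.normalizerMonoidHom (H := B1) ⟨k, le_normalizer_coreOf B (B ⊓ A) hk.2⟩
    haveI : (N.map ψ.toMonoidHom).Normal := Subgroup.Normal.map inferInstance ψ.toMonoidHom ψ.surjective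
    have hψout : ∃ w ∈ N.map ψ.toMonoidHom, (w : G) ∉ P.ker1 := by
      obtain ⟨w, hw, hwo⟩ := hNout
      refine ⟨ψ w, ⟨w, hw, rfl⟩, fun hin => hwo ?_⟩
      have := P.ker1_conj (A.inv_mem hk.1) hin
      rwa [show k⁻¹ * ((ψ w : B1) : G) * k⁻¹⁻¹ = w by
        show k⁻¹ * (k * (w : G) * k⁻¹) * k⁻¹⁻¹ = w
        group] at this
    rcases hNmin (N ⊓ N.map ψ.toMonoidHom) inferInstance inf_le_left with e | e
    · exfalso
      -- two commuting copies of the alternating group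
      have hA' := himage N inferInstance hNout
      have hB' := himage _ inferInstance hψout
      have hcomm : ∀ a ∈ alternatingGroup (Fin (d - 1)), ∀ b ∈ alternatingGroup (Fin (d - 1)),
          a * b = b * a := by
        intro a ha b hb
        obtain ⟨x, hx, rfl⟩ := hA' ha
        obtain ⟨z, hz, rfl⟩ := hB' hb
        have hxz := Subgroup.commute_of_normal_of_disjoint N (N.map ψ.toMonoidHom) inferInstance
          inferInstance (disjoint_iff.2 e) x z hx hz
        rw [← map_mul, ← map_mul, hxz.eq]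
      have hle : alternatingGroup (Fin (d - 1)) ≤
          Subgroup.centralizer ((alternatingGroup (Fin (d - 1)) : Subgroup _) : Set (Equiv.Perm (Fin (d - 1)))) :=
        fun a ha => Subgroup.mem_centralizer_iff.2 fun b hb => hcomm b hb a ha
      rw [Alt.centralizer_alternatingGroup_eq_bot (by rw [Nat.card_fin]; omega), le_bot_iff] at hle
      obtain ⟨w, hw, hwo⟩ := hNout
      have h5 := card_alt_half (n := d - 1) (by omega) (le_refl (alternatingGroup (Fin (d - 1))))
      rw [hle, Subgroup.card_bot] at h5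
      have h7 : 120 ≤ (d - 1).factorial :=
        le_trans (by decide : 120 ≤ Nat.factorial 5) (Nat.factorial_le (by omega))
      omega
    · have hle : N ≤ N.map ψ.toMonoidHom := inf_eq_left.1 e
      have heq := Subgroup.eq_of_le_of_card_ge hle
        (le_of_eq (Subgroup.card_map_of_injective ψ.injective))
      exact ⟨ψ v, heq ▸ ⟨v, hv, rfl⟩, rfl⟩
  obtain ⟨w, hw, hwout⟩ := hNout
  refine ⟨w, hB1K w.2, hwout, fun x hx => ?_⟩
  -- the commutator lies in both
  have hxK := P.ker1_le hx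
  have h1 : (w : G) * x * (w : G)⁻¹ * x⁻¹ ∈ P.ker1 :=
    mul_mem (P.ker1_conj (hB1K w.2).1 hx) (inv_mem hx)
  have h3 : (w : G) * x * (w : G)⁻¹ * x⁻¹ ∈ NG := by
    rw [show (w : G) * x * (w : G)⁻¹ * x⁻¹ = (w : G) * (x * (w : G)⁻¹ * x⁻¹) by group]
    exact mul_mem ⟨w, hw, rfl⟩ (hNnorm x hxK _ (inv_mem ⟨w, hw, rfl⟩))
  obtain ⟨v, hv, e⟩ := h3
  have h5 : (w : G) * x * (w : G)⁻¹ * x⁻¹ = 1 := by
    have hv1 : (v : G) ∈ P.ker1 := by
      rw [show (v : G) = _ from e]; exact h1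
    rw [← e, hNX v hv hv1]
    rfl
  rwa [mul_inv_eq_one, mul_inv_eq_iff_eq_mul] at h5

/-- The normal alternating subgroup. -/
theorem nonempty_altPart (hd : 6 ≤ d) (P : Arm A B d) (hP : P.Big) (hab : NoAbelian A B)
    (hcen : ∃ c ∈ A ⊓ B, c ∉ P.ker1 ∧ ∀ x ∈ P.ker1, c * x = x * c) : Nonempty (AltPart P) := by
  let C : Subgroup G := A ⊓ Subgroup.centralizer (P.ker1 : Set G)
  have hCn : ∀ m ∈ A, ∀ c ∈ C, m * c * m⁻¹ ∈ C := by
    intro m hm c hc
    refine Subgroup.mem_inf.2 ⟨mul_mem (mul_mem hm hc.1) (inv_mem hm), ?_⟩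
    rw [Subgroup.mem_centralizer_iff]
    intro x hx
    have h1 : m⁻¹ * x * m⁻¹⁻¹ ∈ P.ker1 := P.ker1_conj (inv_mem hm) hx
    have h2 := Subgroup.mem_centralizer_iff.1 hc.2 _ h1
    rw [inv_inv] at h2
    calc x * (m * c * m⁻¹) = m * ((m⁻¹ * x * m) * c) * m⁻¹ := by group
      _ = m * (c * (m⁻¹ * x * m)) * m⁻¹ := by rw [h2]
      _ = m * c * m⁻¹ * x := by group
  have hCinj : ∀ c ∈ C, c ∈ P.ker1 → c = 1 := by
    intro c hc hc1
    refine (Subgroup.eq_bot_iff_forall _).1 (hab (P.ker1 ⊓ Subgroup.centralizer (P.ker1 : Set G))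
      (inf_le_left.trans P.ker1_le) (fun x hx y hy => ?_) (fun k hk x hx => ?_)) c ⟨hc1, hc.2⟩
    · exact Subgroup.mem_centralizer_iff.1 hy.2 x hx.1
    · exact Subgroup.mem_inf.2 ⟨P.ker1_conj hk.1 hx.1, (hCn k hk.1 x ⟨(P.ker1_le hx.1).1, hx.2⟩).2⟩
  have himg : alternatingGroup (Fin d) ≤ (C.subgroupOf A).map P.σ := by
    obtain ⟨c, hc, hc1, hcc⟩ := hcen
    have hcC : c ∈ C := Subgroup.mem_inf.2
      ⟨hc.1, Subgroup.mem_centralizer_iff.2 fun x hx => (hcc x hx).symm⟩
    refine alt_le_of_normalized (by rw [Nat.card_fin]; omega) (fun h => hc1 ((P.mem_ker1 ⟨c, hc.1⟩).2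
      ((Subgroup.eq_bot_iff_forall _).1 h _ (Subgroup.mem_map_of_mem P.σ
        (show (⟨c, hc.1⟩ : A) ∈ C.subgroupOf A from hcC))))) ?_
    rintro a ha _ ⟨v, hv, rfl⟩
    obtain ⟨u, rfl⟩ := hP ha
    exact ⟨u * v * u⁻¹, hCn u u.2 v hv, by simp⟩
  refine ⟨{
    T := ((C.subgroupOf A) ⊓ (alternatingGroup (Fin d)).comap P.σ).map A.subtype
    le := Subgroup.map_subtype_le _
    norm := ?_
    comm := ?_
    inj := ?_
    image := ?_ }⟩
  · rintro m hm _ ⟨t, ⟨htC, hta⟩, rfl⟩
    refine ⟨⟨m, hm⟩ * t * ⟨m, hm⟩⁻¹, ⟨hCn m hm t htC, ?_⟩, rfl⟩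
    show P.σ (_ * _ * _) ∈ alternatingGroup (Fin d)
    rw [map_mul, map_mul, map_inv]
    exact (inferInstance : (alternatingGroup (Fin d)).Normal).conj_mem _ hta _
  · rintro _ ⟨t, ⟨htC, -⟩, rfl⟩ x hx
    exact (Subgroup.mem_centralizer_iff.1 htC.2 x hx).symm
  · rintro _ ⟨t, ⟨htC, -⟩, rfl⟩ h
    exact hCinj _ htC h
  · ext a
    constructor
    · rintro ⟨u, ⟨t, ⟨-, hta⟩, e⟩, rfl⟩
      rw [show u = t from Subtype.ext e.symm]
      exact hta
    · intro ha
      obtain ⟨t, ht, e⟩ := himg ha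
      refine ⟨t, ⟨t, Subgroup.mem_inf.2 ⟨ht, ?_⟩, rfl⟩, e⟩
      show P.σ t ∈ alternatingGroup (Fin d)
      rwa [e]

theorem AltPart.equiv {P : Arm A B d} (D : AltPart P) :
    Nonempty (D.T ≃* alternatingGroup (Fin d)) := by
  let f : D.T →* alternatingGroup (Fin d) :=
    (P.σ.comp (Subgroup.inclusion D.le)).codRestrict _ fun t => by
      rw [← D.image]
      exact Subgroup.mem_map_of_mem P.σ (show (Subgroup.inclusion D.le t) ∈ D.T.subgroupOf A from t.2)
  refine ⟨MulEquiv.ofBijective f ⟨?_, ?_⟩⟩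
  · rw [← MonoidHom.ker_eq_bot_iff, eq_bot_iff]
    intro t ht
    exact Subgroup.mem_bot.2 (Subtype.ext (D.inj t t.2
      ((P.mem_ker1 (Subgroup.inclusion D.le t)).2 (congrArg Subtype.val (MonoidHom.mem_ker.1 ht)))))
  · intro a
    have h5 : a.1 ∈ (D.T.subgroupOf A).map P.σ := by rw [D.image]; exact a.2
    obtain ⟨u, hu, e⟩ := h5
    exact ⟨⟨u, hu⟩, Subtype.ext e⟩

/-- Kernels with trivial second core have no large simple quotient. -/
theorem no_large_quotient (P : Arm A B d) (Q : Arm B A d) (h2 : core2 B A = ⊥) {Y : Subgroup G}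
    (hY : Y ≤ Q.ker1) {S : Type*} [Group S] [IsSimpleGroup S] (hS : (d - 1).factorial < Nat.card S)
    (f : Y →* S) : ¬ Function.Surjective f := by
  haveI : Fintype B := Fintype.ofFinite B
  have hK : ∀ m : B, ∀ y : Y, (m : G) * y * (m : G)⁻¹ ∈ A ⊓ B := fun m y =>
    (inf_comm B A).le (Q.ker1_le (Q.ker1_conj m.2 (hY y.2)))
  let ρ : B → Y →* Equiv.Perm (Fin (d - 1)) := fun m => P.π.comp
    { toFun := fun y => ⟨(m : G) * y * (m : G)⁻¹, hK m y⟩
      map_one' := Subtype.ext (by simp)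
      map_mul' := fun a b => Subtype.ext (by simp [mul_assoc]) }
  refine not_surjective_of_small (fun m : B => (ρ m).ker) (fun m => inferInstance) (fun m => ?_) ?_ f
  · refine lt_of_le_of_lt ?_ hS
    rw [Subgroup.index_ker]
    refine (Subgroup.card_le_card_group _).trans ?_
    rw [Nat.card_perm, Nat.card_fin]
  · intro y hy
    have h : (y : G) ∈ core2 B A := by
      rw [core2, mem_coreOf]
      refine ⟨(Q.ker1_le (hY y.2)).1, fun m hm => Subgroup.mem_inf.2 ⟨Q.ker1_conj hm (hY y.2), ?_⟩⟩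
      exact (P.π_eq_one _).1 (MonoidHom.mem_ker.1 (hy ⟨m, hm⟩))
    rw [h2, Subgroup.mem_bot] at h
    exact Subtype.ext h

/-- The facts got from one big arm with trivial second core on the other side. -/
theorem transfer (hd : 6 ≤ d) (P : Arm A B d) (Q : Arm B A d) (h2 : core2 B A = ⊥) (D : AltPart P)
    (g : G) (hg : A.map (MulAut.conj g).toMonoidHom = B) :
    Q.Big ∧ (∀ x ∈ P.ker1, g * x * g⁻¹ ∈ Q.ker1) ∧
      ((∀ k ∈ A ⊓ B, ∀ x ∈ both A B, k * x * k⁻¹ ∈ both A B) → both A B = ⊥) := by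
  classical
  haveI := alternatingGroup.isSimpleGroup (α := Fin d) (by rw [Nat.card_fin]; omega)
  set T' : Subgroup G := D.T.map (MulAut.conj g).toMonoidHom with hT'
  have hT'B : T' ≤ B := hg ▸ Subgroup.map_mono D.le
  obtain ⟨e0⟩ := D.equiv
  let eT : T' ≃* alternatingGroup (Fin d) :=
    ((MulAut.conj g).subgroupMap D.T).symm.trans e0
  haveI : IsSimpleGroup T' := MulEquiv.isSimpleGroup_congr eT |>.2 inferInstance
  have hT'n : ∀ m ∈ B, ∀ t ∈ T', m * t * m⁻¹ ∈ T' := by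
    intro m hm
    rintro _ ⟨t, ht, rfl⟩
    obtain ⟨u, hu, rfl⟩ := (hg ▸ hm : m ∈ A.map (MulAut.conj g).toMonoidHom)
    exact ⟨u * t * u⁻¹, D.norm u hu t ht, by simp [mul_assoc]⟩
  -- it meets the kernel trivially
  have hinj : ∀ t ∈ T', t ∈ Q.ker1 → t = 1 := by
    intro t ht htQ
    haveI : (Q.ker1.subgroupOf T').Normal := ⟨fun x hx u => Q.ker1_conj (hT'B u.2) hx⟩
    rcases Subgroup.Normal.eq_bot_or_eq_top (H := Q.ker1.subgroupOf T') inferInstance with e | e
    · have h5 : (⟨t, ht⟩ : T') ∈ Q.ker1.subgroupOf T' := htQ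
      rw [e, Subgroup.mem_bot] at h5
      exact congrArg Subtype.val h5
    · exact absurd eT.surjective (no_large_quotient P Q h2 (Subgroup.subgroupOf_eq_top.1 e)
        (factorial_lt_card_alternatingGroup (by omega)) eT.toMonoidHom)
  let τ : T' →* Equiv.Perm (Fin d) := Q.σ.comp (Subgroup.inclusion hT'B)
  have hτ : Function.Injective τ := by
    rw [← MonoidHom.ker_eq_bot_iff, eq_bot_iff]
    intro t ht
    exact Subgroup.mem_bot.2 (Subtype.ext (hinj t t.2
      ((Q.mem_ker1 (Subgroup.inclusion hT'B t)).2 (MonoidHom.mem_ker.1 ht))))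
  haveI : Nontrivial (Fin d) := Fin.nontrivial_iff_two_le.2 (by omega)
  have hτc : Nat.card τ.range = Nat.card (alternatingGroup (Fin d)) := by
    rw [← Nat.card_congr (MonoidHom.ofInjective hτ).toEquiv, Nat.card_congr eT.toEquiv]
  have hτalt : τ.range = alternatingGroup (Fin d) := by
    apply eq_alternatingGroup_of_index_eq_two
    have h1 := τ.range.card_mul_index
    rw [hτc, ← two_mul_nat_card_alternatingGroup (α := Fin d), mul_comm 2] at h1
    exact Nat.eq_of_mul_eq_mul_left Nat.card_pos h1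
  have hBig : Q.Big := by
    intro a ha
    obtain ⟨t, e⟩ := (hτalt ▸ ha : a ∈ τ.range)
    exact ⟨_, e⟩
  have hcomm : ∀ t ∈ T', ∀ x ∈ Q.ker1, t * x = x * t := by
    intro t ht x hx
    have h1 : t * x * t⁻¹ * x⁻¹ ∈ Q.ker1 := mul_mem (Q.ker1_conj (hT'B ht) hx) (inv_mem hx)
    have h3 : t * x * t⁻¹ * x⁻¹ ∈ T' := by
      rw [show t * x * t⁻¹ * x⁻¹ = t * (x * t⁻¹ * x⁻¹) by group]
      exact mul_mem ht (hT'n x (Q.ker1_le hx).1 _ (inv_mem ht))
    have := hinj _ h3 h1
    rwa [mul_inv_eq_one, mul_inv_eq_iff_eq_mul] at this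
  refine ⟨hBig, fun x hx => ?_, fun hK => ?_⟩
  · -- the centraliser of `T'` in `B` is inside the kernel
    have hxB : g * x * g⁻¹ ∈ B := hg ▸ ⟨x, (P.ker1_le hx).1, rfl⟩
    rw [show g * x * g⁻¹ = ((⟨_, hxB⟩ : B) : G) from rfl, Q.mem_ker1]
    have hc : Q.σ ⟨_, hxB⟩ ∈
        Subgroup.centralizer ((alternatingGroup (Fin d) : Subgroup _) : Set (Equiv.Perm (Fin d))) := by
      rw [Subgroup.mem_centralizer_iff]
      intro a ha
      rw [← hτalt] at ha
      obtain ⟨⟨_, t, ht, rfl⟩, rfl⟩ := ha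
      show Q.σ _ * Q.σ _ = Q.σ _ * Q.σ _
      rw [← map_mul, ← map_mul]
      refine congrArg Q.σ (Subtype.ext ?_)
      show g * t * g⁻¹ * (g * x * g⁻¹) = g * x * g⁻¹ * (g * t * g⁻¹)
      calc g * t * g⁻¹ * (g * x * g⁻¹) = g * (t * x) * g⁻¹ := by group
        _ = g * (x * t) * g⁻¹ := by rw [D.comm t ht x hx]
        _ = _ := by group
    rw [Alt.centralizer_alternatingGroup_eq_bot (by rw [Nat.card_fin]; omega), Subgroup.mem_bot] at hc
    exact hc
  · rw [eq_bot_iff]
    intro x hx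
    have hxQ : x ∈ Q.ker1 := hx.2
    have h : x ∈ core2 B A := by
      rw [core2, mem_coreOf]
      refine ⟨(Q.ker1_le hxQ).1, fun m hm => ?_⟩
      rw [inf_comm]
      -- move the point by an element of `T'`
      haveI : MulAction.IsPretransitive (alternatingGroup (Fin d)) (Fin d) := by
        refine ⟨fun i j => ?_⟩
        obtain ⟨u, v, huv, hui, huj, hvi, hvj⟩ := Alt.exists_two_others (α := Fin d) (by rw [Nat.card_fin]; omega) i j
        by_cases hij : i = j
        · exact ⟨1, by rw [one_smul, hij]⟩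
        refine ⟨⟨swap u v * swap i j, ?_⟩, ?_⟩
        · rw [mem_alternatingGroup, map_mul, sign_swap huv, sign_swap hij, Int.units_mul_self]
        · show swap u v (swap i j i) = j
          rw [swap_apply_left, swap_apply_of_ne_of_ne huj.symm hvj.symm]
      obtain ⟨a, ha⟩ := MulAction.exists_smul_eq (alternatingGroup (Fin d)) (Q.σ ⟨m, hm⟩ Q.pt) Q.pt
      obtain ⟨t, ht⟩ := (hτalt.symm ▸ a.2 : a.1 ∈ τ.range)
      have hk : (t : G) * m ∈ B ⊓ A := Subgroup.mem_inf.2 ⟨mul_mem (hT'B t.2) hm, by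
        refine (Q.stab ⟨_, mul_mem (hT'B t.2) hm⟩).1 ?_
        rw [show (⟨(t : G) * m, mul_mem (hT'B t.2) hm⟩ : B) = Subgroup.inclusion hT'B t * ⟨m, hm⟩ from rfl,
          map_mul, Perm.mul_apply]
        show τ t (Q.σ ⟨m, hm⟩ Q.pt) = Q.pt
        rw [ht]
        exact ha⟩
      have h1 := hK _ ((inf_comm B A).le hk) x hx
      have h5 : (t : G) * m * x * ((t : G) * m)⁻¹ * (t : G) =
          (t : G) * ((t : G) * m * x * ((t : G) * m)⁻¹) := (hcomm t t.2 _ h1.2).symm
      have h6 : m * x * m⁻¹ = (t : G) * m * x * ((t : G) * m)⁻¹ := by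
        calc m * x * m⁻¹ = (t : G)⁻¹ * ((t : G) * m * x * ((t : G) * m)⁻¹ * (t : G)) := by group
          _ = _ := by rw [h5, inv_mul_cancel_left]
      rw [h6]
      exact h1
    rwa [h2] at h

/-- If the second core on the big side is trivial, the other side is big too. -/
theorem big_of_core2 (hd : 6 ≤ d) (P : Arm A B d) (hP : P.Big) (Q : Arm B A d)
    (h2 : core2 A B = ⊥) (g : G) (hg : A.map (MulAut.conj g).toMonoidHom = B) : Q.Big := by
  haveI := alternatingGroup.isSimpleGroup (α := Fin d) (by rw [Nat.card_fin]; omega)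
  have hback : ∀ y ∈ B, g⁻¹ * y * g ∈ A := fun y hy => by
    obtain ⟨u, hu, rfl⟩ := (hg ▸ hy : y ∈ A.map (MulAut.conj g).toMonoidHom)
    simpa [mul_assoc] using hu
  have hQB : Q.ker1 ≤ B := Q.ker1_le.trans inf_le_left
  let f : Q.ker1 →* Equiv.Perm (Fin d) := P.σ.comp
    { toFun := fun y => ⟨g⁻¹ * (y : G) * g, hback y (hQB y.2)⟩
      map_one' := Subtype.ext (by simp)
      map_mul' := fun a b => Subtype.ext (by simp [mul_assoc]) }
  have hsmall : Q.ker1 ≤ P.ker1.comap (MulAut.conj g⁻¹).toMonoidHom := by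
    by_contra hne
    have hfne : f.range ≠ ⊥ := fun h => hne fun y hy => by
      have := (Subgroup.eq_bot_iff_forall _).1 h _ ⟨⟨y, hy⟩, rfl⟩
      show g⁻¹ * y * g⁻¹⁻¹ ∈ P.ker1
      rw [inv_inv]
      exact (P.mem_ker1 ⟨_, hback y (hQB hy)⟩).2 this
    have halt : alternatingGroup (Fin d) ≤ f.range := by
      refine alt_le_of_normalized (by rw [Nat.card_fin]; omega) hfne ?_
      rintro a ha _ ⟨y, rfl⟩
      obtain ⟨u, rfl⟩ := hP ha
      have hu : g * (u : G) * g⁻¹ ∈ B := hg ▸ ⟨u, u.2, rfl⟩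
      refine ⟨⟨_, Q.ker1_conj hu y.2⟩, ?_⟩
      show P.σ _ = _
      rw [show f y = P.σ ⟨g⁻¹ * (y : G) * g, hback y (hQB y.2)⟩ from rfl, ← map_inv, ← map_mul, ← map_mul]
      refine congrArg P.σ (Subtype.ext ?_)
      show g⁻¹ * (g * (u : G) * g⁻¹ * y * (g * (u : G) * g⁻¹)⁻¹) * g = u * (g⁻¹ * y * g) * (u : G)⁻¹
      group
    let X : Subgroup Q.ker1 := P.ker1.subgroupOf Q.ker1
    have hbig : (d - 1).factorial < Nat.card (alternatingGroup (Fin d)) :=
      factorial_lt_card_alternatingGroup (by omega)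
    have hXidx : X.index ≤ (d - 1).factorial := by
      have hle : Q.ker1 ≤ A ⊓ B := Q.ker1_le.trans (le_of_eq (inf_comm _ _))
      rw [show X = (P.π.comp (Subgroup.inclusion hle)).ker from Subgroup.ext fun y => by
        rw [MonoidHom.mem_ker, MonoidHom.comp_apply, P.π_eq_one]; rfl, Subgroup.index_ker]
      refine (Subgroup.card_le_card_group _).trans ?_
      rw [Nat.card_perm, Nat.card_fin]
    have hXne : X.map f ≠ ⊥ := by
      intro h
      have h1 : f.ker.index ∣ X.index := Subgroup.index_dvd_of_le ((Subgroup.map_eq_bot_iff _).1 h)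
      rw [Subgroup.index_ker] at h1
      have h3 := Nat.le_of_dvd (Nat.pos_of_ne_zero Subgroup.index_ne_zero_of_finite) h1
      have h4 := Subgroup.card_le_of_le halt
      omega
    haveI : X.Normal := ⟨fun x hx u =>
      P.ker1_conj (Q.ker1_le u.2).2 hx⟩
    have hXalt : alternatingGroup (Fin d) ≤ X.map f := by
      refine alt_le_of_normalized (by rw [Nat.card_fin]; omega) hXne ?_
      rintro a ha _ ⟨x, hx, rfl⟩
      obtain ⟨u, rfl⟩ := halt ha
      exact ⟨u * x * u⁻¹, ‹X.Normal›.conj_mem x hx u, by simp⟩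
    let Y : Subgroup G := (X ⊓ (alternatingGroup (Fin d)).comap f).map Q.ker1.subtype
    let F : Y →* alternatingGroup (Fin d) :=
      (f.comp (Subgroup.inclusion (Subgroup.map_subtype_le _))).codRestrict _ fun y => by
        obtain ⟨v, hv, e⟩ := y.2
        have : (Subgroup.inclusion (Subgroup.map_subtype_le _) y : Q.ker1) = v := Subtype.ext e.symm
        rw [MonoidHom.comp_apply, this]
        exact hv.2
    refine no_large_quotient Q P h2 (Y := Y) (fun y hy => ?_) hbig F fun a => ?_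
    · obtain ⟨v, hv, rfl⟩ := hy
      exact hv.1
    · obtain ⟨v, hv, e⟩ := hXalt a.2
      refine ⟨⟨v, v, Subgroup.mem_inf.2 ⟨hv, ?_⟩, rfl⟩, Subtype.ext e⟩
      show f v ∈ alternatingGroup (Fin d)
      rw [e]; exact a.2
  have hle : Nat.card Q.ker1 ≤ Nat.card P.ker1 :=
    Nat.card_le_card_of_injective (fun y : Q.ker1 => (⟨_, hsmall y.2⟩ : P.ker1)) fun a b e =>
      Subtype.ext ((MulAut.conj g⁻¹).injective (congrArg Subtype.val e : _))
  haveI : Nontrivial (Fin d) := Fin.nontrivial_iff_two_le.2 (by omega)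
  refine alternatingGroup_le_of_index_le_two ?_
  have hkA : Nat.card A = Nat.card P.σ.range * Nat.card P.ker1 := by
    rw [← Subgroup.index_ker, mul_comm, show P.σ.ker = P.ker1.subgroupOf A from Subgroup.ext fun x =>
      MonoidHom.mem_ker.trans (P.mem_ker1 x).symm, ← Subgroup.card_mul_index (P.ker1.subgroupOf A),
      Nat.card_congr (Subgroup.subgroupOfEquivOfLe (P.ker1_le.trans inf_le_left)).toEquiv]
  have hkB : Nat.card B = Nat.card Q.σ.range * Nat.card Q.ker1 := by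
    rw [← Subgroup.index_ker, mul_comm, show Q.σ.ker = Q.ker1.subgroupOf B from Subgroup.ext fun x =>
      MonoidHom.mem_ker.trans (Q.mem_ker1 x).symm, ← Subgroup.card_mul_index (Q.ker1.subgroupOf B),
      Nat.card_congr (Subgroup.subgroupOfEquivOfLe hQB).toEquiv]
  have hAB : Nat.card B = Nat.card A := by
    rw [← hg, Subgroup.card_map_of_injective (MulAut.conj g).injective]
  have h3 : Nat.card P.σ.range ≤ Nat.card Q.σ.range := by
    refine Nat.le_of_mul_le_mul_right ?_ (Nat.card_pos (α := P.ker1))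
    rw [← hkA, ← hAB, hkB]
    exact Nat.mul_le_mul_left _ hle
  have h4 := card_alt_half (n := d) (by omega) hP
  have h5 := Q.σ.range.card_mul_index
  rw [Nat.card_perm, Nat.card_fin] at h5
  have hpos := Nat.card_pos (α := Q.σ.range)
  nlinarith

/-- The kernels meet trivially, and both arms have normal alternating subgroups. -/
theorem structure_theorem (hd : 6 ≤ d) (P : Arm A B d) (hP : P.Big) (Q : Arm B A d)
    (hne : P.ker1 ≠ ⊥) (hc : NoCommon A B) (hab : NoAbelian A B)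
    (hor : core2 A B = ⊥ ∨ core2 B A = ⊥) (g : G) (hg : A.map (MulAut.conj g).toMonoidHom = B) :
    Q.Big ∧ both A B = ⊥ ∧ Nat.card P.ker1 = Nat.card Q.ker1 ∧ ¬ P.ker1 ≤ Q.ker1 ∧
      Nonempty (AltPart P) := by
  have hnle := kernel_not_le hd P hP Q hne hc
  have hQne : Q.ker1 ≠ ⊥ := fun h => hnle (h ▸ bot_le)
  have hg' : B.map (MulAut.conj g⁻¹).toMonoidHom = A := by
    rw [← hg, Subgroup.map_map]
    convert Subgroup.map_id A
    ext x
    simp [mul_assoc]
  have hnorm : ∀ k ∈ A ⊓ B, ∀ x ∈ both A B, k * x * k⁻¹ ∈ both A B := fun k hk x hx =>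
    Subgroup.mem_inf.2 ⟨P.ker1_conj hk.1 hx.1, Q.ker1_conj hk.2 hx.2⟩
  have hnorm' : ∀ k ∈ B ⊓ A, ∀ x ∈ both B A, k * x * k⁻¹ ∈ both B A := fun k hk x hx =>
    both_comm B A ▸ hnorm k ((inf_comm B A).le hk) x ((both_comm B A).le hx)
  have h2 : core2 B A = ⊥ := by
    by_contra hB
    have h2A := hor.resolve_right hB
    have hQ := big_of_core2 hd P hP Q h2A g hg
    have hnle' := kernel_not_le hd Q hQ P hQne hc.symm
    obtain ⟨D⟩ := nonempty_altPart hd Q hQ hab.symm (exists_centralizing hd Q hQ P hnle' h2A)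
    have h0 := (transfer hd Q P h2A D g⁻¹ hg').2.2 hnorm'
    apply hB
    rw [eq_bot_iff, ← h0]
    exact coreOf_le _ _
  obtain ⟨D⟩ := nonempty_altPart hd P hP hab (exists_centralizing hd P hP Q hnle h2)
  obtain ⟨hQ, hle, h0⟩ := transfer hd P Q h2 D g hg
  have hX := h0 hnorm
  have h2A : core2 A B = ⊥ := by
    rw [eq_bot_iff, ← hX]; exact coreOf_le _ _
  have hnle' := kernel_not_le hd Q hQ P hQne hc.symm
  obtain ⟨D'⟩ := nonempty_altPart hd Q hQ hab.symm (exists_centralizing hd Q hQ P hnle' h2A)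
  obtain ⟨-, hle', -⟩ := transfer hd Q P h2A D' g⁻¹ hg'
  refine ⟨hQ, hX, le_antisymm ?_ ?_, hnle', ⟨D⟩⟩
  · exact Nat.card_le_card_of_injective (fun x : P.ker1 => (⟨_, hle x x.2⟩ : Q.ker1)) fun a b e =>
      Subtype.ext ((MulAut.conj g).injective (congrArg Subtype.val e : _))
  · exact Nat.card_le_card_of_injective (fun x : Q.ker1 => (⟨_, hle' x x.2⟩ : P.ker1)) fun a b e =>
      Subtype.ext ((MulAut.conj g⁻¹).injective (congrArg Subtype.val e : _))

/-- The three groups over the product of two alternating groups that project onto the first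
symmetric group. -/
theorem prod_cases {n : ℕ} {R : Subgroup (Equiv.Perm (Fin d) × Equiv.Perm (Fin n))}
    (hd : 2 ≤ d) (hR : (alternatingGroup (Fin d)).prod (alternatingGroup (Fin n)) ≤ R)
    (hfst : ∀ a, ∃ b, (a, b) ∈ R) :
    R = ⊤ ∨ R = (⊤ : Subgroup (Equiv.Perm (Fin d))).prod (alternatingGroup (Fin n)) ∨
      R = ((Equiv.Perm.sign.comp (MonoidHom.fst (Equiv.Perm (Fin d)) (Equiv.Perm (Fin n)))) *
        (Equiv.Perm.sign.comp (MonoidHom.snd (Equiv.Perm (Fin d)) (Equiv.Perm (Fin n))))).ker := by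
  haveI : Nontrivial (Fin d) := Fin.nontrivial_iff_two_le.2 hd
  obtain ⟨i, j, hij⟩ := exists_pair_ne (Fin d)
  obtain ⟨b₀, hb₀⟩ := hfst (swap i j)
  have hs : sign (swap i j) = -1 := sign_swap hij
  have hev : ∀ (a : Equiv.Perm (Fin d)) (b : Equiv.Perm (Fin n)), sign a = 1 → sign b = 1 →
      (a, b) ∈ R := fun a b ha hb =>
    hR (Subgroup.mem_prod.2 ⟨mem_alternatingGroup.2 ha, mem_alternatingGroup.2 hb⟩)
  have hquot : ∀ {p q : Equiv.Perm (Fin d) × Equiv.Perm (Fin n)}, p ∈ R → sign q.1 = sign p.1 →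
      sign q.2 = sign p.2 → q ∈ R := by
    intro p q hp h1 h2
    have : p⁻¹ * q ∈ R := hev _ _
      (by rw [Prod.fst_inv, map_mul, map_inv, h1, inv_mul_cancel])
      (by rw [Prod.snd_inv, map_mul, map_inv, h2, inv_mul_cancel])
    simpa using mul_mem hp this
  by_cases hEO : ∃ p ∈ R, sign p.1 = 1 ∧ sign p.2 = -1
  · left
    obtain ⟨p, hp, hp1, hp2⟩ := hEO
    refine eq_top_iff.2 fun q _ => ?_
    rcases Int.units_eq_one_or (sign q.1) with h1 | h1 <;>
      rcases Int.units_eq_one_or (sign q.2) with h2 | h2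
    · exact hev _ _ h1 h2
    · exact hquot hp (by rw [h1, hp1]) (by rw [h2, hp2])
    all_goals
      rcases Int.units_eq_one_or (sign b₀) with h3 | h3
    · exact hquot hb₀ (by rw [h1, hs]) (by rw [h2, h3])
    · exact hquot (mul_mem hb₀ hp)
        (by rw [Prod.fst_mul, map_mul, hp1, h1, hs, mul_one])
        (by rw [Prod.snd_mul, map_mul, hp2, h2, h3, Int.units_mul_self])
    · exact hquot (mul_mem hb₀ hp)
        (by rw [Prod.fst_mul, map_mul, hp1, h1, hs, mul_one])
        (by rw [Prod.snd_mul, map_mul, hp2, h2, h3, one_mul])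
    · exact hquot hb₀ (by rw [h1, hs]) (by rw [h2, h3])
  push Not at hEO
  have key : ∀ q ∈ R, (sign q.1 = 1 → sign q.2 = 1) ∧ (sign q.1 = -1 → sign q.2 = sign b₀) := by
    intro q hq
    refine ⟨fun h => (Int.units_eq_one_or _).resolve_right (hEO q hq h), fun h => ?_⟩
    rcases Int.units_eq_one_or (sign (q.2 * b₀)) with h' | h'
    · rw [map_mul] at h'
      exact (mul_eq_one_iff_eq_inv.1 h').trans (Int.units_inv_eq_self _)
    · exact absurd h' (hEO _ (mul_mem hq hb₀) (by rw [Prod.fst_mul, map_mul, h, hs, Int.units_mul_self]))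
  right
  rcases Int.units_eq_one_or (sign b₀) with h3 | h3
  · left
    ext q
    rw [Subgroup.mem_prod, mem_alternatingGroup]
    constructor
    · intro hq
      refine ⟨Subgroup.mem_top _, ?_⟩
      rcases Int.units_eq_one_or (sign q.1) with h1 | h1
      · exact (key q hq).1 h1
      · exact ((key q hq).2 h1).trans h3
    · rintro ⟨-, h2⟩
      rcases Int.units_eq_one_or (sign q.1) with h1 | h1
      · exact hev _ _ h1 h2
      · exact hquot hb₀ (by rw [h1, hs]) (by rw [h2, h3])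
  · right
    ext q
    simp only [MonoidHom.mem_ker, MonoidHom.mul_apply, MonoidHom.coe_comp, Function.comp_apply,
      MonoidHom.coe_fst, MonoidHom.coe_snd]
    constructor
    · intro hq
      rcases Int.units_eq_one_or (sign q.1) with h1 | h1
      · rw [h1, (key q hq).1 h1, one_mul]
      · rw [h1, (key q hq).2 h1, h3, Int.units_mul_self]
    · intro h
      rcases Int.units_eq_one_or (sign q.1) with h1 | h1
      · rw [h1, one_mul] at h
        exact hev _ _ h1 h
      · rw [h1, neg_one_mul, neg_eq_iff_eq_neg] at h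
        exact hquot hb₀ (by rw [h1, hs]) (by rw [h, h3])

/-- The isomorphism types. -/
theorem classification (hd : 6 ≤ d) (P : Arm A B d) (hP : P.Big) (Q : Arm B A d)
    (hne : P.ker1 ≠ ⊥) (hc : NoCommon A B) (hab : NoAbelian A B)
    (hor : core2 A B = ⊥ ∨ core2 B A = ⊥) (g : G) (hg : A.map (MulAut.conj g).toMonoidHom = B) :
    (P.σ.range.index = 2 → Nonempty (A ≃* alternatingGroup (Fin d) × alternatingGroup (Fin (d - 1)))) ∧
    (P.σ.range = ⊤ →
      Nonempty (A ≃* Equiv.Perm (Fin d) × Equiv.Perm (Fin (d - 1))) ∨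
      Nonempty (A ≃* Equiv.Perm (Fin d) × alternatingGroup (Fin (d - 1))) ∨
      Nonempty (A ≃* ((Equiv.Perm.sign.comp (MonoidHom.fst (Equiv.Perm (Fin d)) (Equiv.Perm (Fin (d - 1))))) *
        (Equiv.Perm.sign.comp (MonoidHom.snd (Equiv.Perm (Fin d)) (Equiv.Perm (Fin (d - 1)))))).ker)) := by
  classical
  obtain ⟨hQ, hX, hcard, hnle, ⟨D⟩⟩ := structure_theorem hd P hP Q hne hc hab hor g hg
  set n := d - 1 with hn
  have hK : A ⊓ B ≤ B ⊓ A := le_of_eq (inf_comm _ _)
  let π' : (A ⊓ B : Subgroup G) →* Equiv.Perm (Fin n) := Q.π.comp (Subgroup.inclusion hK)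
  have hπ' : ∀ x, π' x = 1 ↔ (x : G) ∈ Q.ker1 := fun x => Q.π_eq_one _
  have hPimg : alternatingGroup (Fin n) ≤ (P.ker1.subgroupOf (B ⊓ A)).map Q.π :=
    (Q.le_ker1_or_alt_le hd hQ (P.ker1_le.trans hK) fun k hk x hx => P.ker1_conj hk.2 hx).resolve_left hnle
  -- the alternating part acts trivially on the other side
  have hTK : ∀ x : (A ⊓ B : Subgroup G), (x : G) ∈ D.T → π' x = 1 := by
    intro x hx
    have h : π' x ∈ Subgroup.centralizer ((alternatingGroup (Fin n) : Subgroup _) : Set (Equiv.Perm (Fin n))) := by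
      rw [Subgroup.mem_centralizer_iff]
      intro a ha
      obtain ⟨u, hu, rfl⟩ := hPimg ha
      show Q.π u * Q.π _ = Q.π _ * Q.π u
      rw [← map_mul, ← map_mul]
      exact congrArg Q.π (Subtype.ext (D.comm x hx u hu).symm)
    rwa [Alt.centralizer_alternatingGroup_eq_bot (by rw [Nat.card_fin]; omega), Subgroup.mem_bot] at h
  -- `A` is the product of the alternating part and the arc stabiliser
  have hdec : ∀ x : A, ∃ k : (A ⊓ B : Subgroup G), (x : G) * (k : G)⁻¹ ∈ D.T := by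
    intro x
    by_cases hxp : P.σ x P.pt = P.pt
    · exact ⟨⟨x, x.2, (P.stab x).1 hxp⟩, by simp⟩
    obtain ⟨u, v, huv, hui, huj, hvi, hvj⟩ :=
      Alt.exists_two_others (α := Fin d) (by rw [Nat.card_fin]; omega) (P.σ x P.pt) P.pt
    have ha : swap u v * swap (P.σ x P.pt) P.pt ∈ alternatingGroup (Fin d) := by
      rw [mem_alternatingGroup, map_mul, sign_swap huv, sign_swap hxp, Int.units_mul_self]
    rw [← D.image] at ha
    obtain ⟨t, ht, e⟩ := ha
    have hfix : P.σ (t * x) P.pt = P.pt := by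
      rw [map_mul, e, Perm.mul_apply, Perm.mul_apply, swap_apply_left,
        swap_apply_of_ne_of_ne huj.symm hvj.symm]
    refine ⟨⟨_, (t * x).2, (P.stab _).1 hfix⟩, ?_⟩
    simpa using inv_mem (show (t : G) ∈ D.T from ht)
  choose k hk using hdec
  have hwd : ∀ (x : A) (l : (A ⊓ B : Subgroup G)), (x : G) * (l : G)⁻¹ ∈ D.T → π' (k x) = π' l := by
    intro x l hl
    have h : ((k x * l⁻¹ : (A ⊓ B : Subgroup G)) : G) ∈ D.T := by
      have := mul_mem (inv_mem (hk x)) hl
      rwa [show ((x : G) * (k x : G)⁻¹)⁻¹ * ((x : G) * (l : G)⁻¹) =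
        ((k x * l⁻¹ : (A ⊓ B : Subgroup G)) : G) by simp [mul_assoc]] at this
    have h1 := hTK _ h
    rwa [map_mul, map_inv, mul_inv_eq_one] at h1
  let ψ : A →* Equiv.Perm (Fin n) :=
    { toFun := fun x => π' (k x)
      map_one' := (hwd 1 1 (by simp)).trans (map_one π')
      map_mul' := fun x y => by
        rw [← map_mul]
        refine hwd _ _ ?_
        rw [show ((x * y : A) : G) * ((k x * k y : (A ⊓ B : Subgroup G)) : G)⁻¹ =
          ((x : G) * ((y : G) * (k y : G)⁻¹) * (x : G)⁻¹) * ((x : G) * (k x : G)⁻¹) by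
            simp [mul_assoc]]
        exact mul_mem (D.norm x x.2 _ (hk y)) (hk x) }
  have hψK : ∀ (x : A) (hx : (x : G) ∈ B), ψ x = π' ⟨x, x.2, hx⟩ := fun x hx =>
    hwd x ⟨x, x.2, hx⟩ (by simp)
  let F : A →* Equiv.Perm (Fin d) × Equiv.Perm (Fin n) := P.σ.prod ψ
  have hFinj : Function.Injective F := by
    rw [← MonoidHom.ker_eq_bot_iff, eq_bot_iff]
    intro x hx
    have h := MonoidHom.mem_ker.1 hx
    have h1 : (x : G) ∈ P.ker1 := (P.mem_ker1 x).2 (congrArg Prod.fst h)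
    have h2 : (x : G) ∈ Q.ker1 := by
      have hxB : (x : G) ∈ B := (P.ker1_le h1).2
      refine (hπ' ⟨x, x.2, hxB⟩).1 ?_
      rw [← hψK x hxB]
      exact congrArg Prod.snd h
    exact Subgroup.mem_bot.2 (Subtype.ext ((Subgroup.eq_bot_iff_forall _).1 hX _ ⟨h1, h2⟩))
  have hR : (alternatingGroup (Fin d)).prod (alternatingGroup (Fin n)) ≤ F.range := by
    rintro ⟨a, b⟩ hab'
    obtain ⟨ha, hb⟩ := Subgroup.mem_prod.1 hab'
    rw [← D.image] at ha
    obtain ⟨t, ht, rfl⟩ := ha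
    obtain ⟨u, hu, rfl⟩ := hPimg hb
    refine ⟨t * ⟨u, u.2.2⟩, ?_⟩
    refine Prod.ext ?_ ?_
    · show P.σ (t * ⟨u, u.2.2⟩) = P.σ t
      rw [map_mul, (P.mem_ker1 ⟨u, u.2.2⟩).1 hu, mul_one]
    · show ψ (t * ⟨u, u.2.2⟩) = Q.π u
      have h1 : ψ t = 1 := (hwd t 1 (by simpa [Subgroup.mem_subgroupOf] using ht)).trans (map_one π')
      rw [map_mul, h1, one_mul, hψK _ u.2.1]
      rfl
  let eA : A ≃* F.range := MonoidHom.ofInjective hFinj
  haveI : Nontrivial (Fin d) := Fin.nontrivial_iff_two_le.2 (by omega)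
  refine ⟨fun hidx => ?_, fun htop => ?_⟩
  · have hσ : P.σ.range = alternatingGroup (Fin d) := eq_alternatingGroup_of_index_eq_two hidx
    have hQ1 : Nat.card Q.ker1 ≤ Nat.card (alternatingGroup (Fin n)) := by
      have hle : Q.ker1 ≤ A ⊓ B := Q.ker1_le.trans (le_of_eq (inf_comm _ _))
      refine Nat.card_le_card_of_injective
        (fun y => (⟨P.π (Subgroup.inclusion hle y), by
          rw [mem_alternatingGroup, P.sign_π]
          exact mem_alternatingGroup.1 (hσ ▸ ⟨_, rfl⟩)⟩ : alternatingGroup (Fin n))) fun a b e => ?_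
      have h1 : P.π (Subgroup.inclusion hle (a * b⁻¹)) = 1 := by
        rw [map_mul, map_mul, map_inv, map_inv, mul_inv_eq_one]
        exact congrArg Subtype.val e
      have h2 := (Subgroup.eq_bot_iff_forall _).1 hX _ ⟨(P.π_eq_one _).1 h1, (a * b⁻¹).2⟩
      exact mul_inv_eq_one.1 (Subtype.ext h2 : a * b⁻¹ = 1)
    have hA : Nat.card A = Nat.card (alternatingGroup (Fin d)) * Nat.card P.ker1 := by
      rw [← hσ, ← Subgroup.index_ker, mul_comm, show P.σ.ker = P.ker1.subgroupOf A from Subgroup.ext fun x =>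
        MonoidHom.mem_ker.trans (P.mem_ker1 x).symm, ← Subgroup.card_mul_index (P.ker1.subgroupOf A),
        Nat.card_congr (Subgroup.subgroupOfEquivOfLe (P.ker1_le.trans inf_le_left)).toEquiv]
    have hPc : Nat.card ((alternatingGroup (Fin d)).prod (alternatingGroup (Fin n))) =
        Nat.card (alternatingGroup (Fin d)) * Nat.card (alternatingGroup (Fin n)) := by
      rw [Nat.card_congr (Subgroup.prodEquiv _ _).toEquiv, Nat.card_prod]
    have he : (alternatingGroup (Fin d)).prod (alternatingGroup (Fin n)) = F.range := by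
      refine Subgroup.eq_of_le_of_card_ge hR ?_
      rw [← Nat.card_congr eA.toEquiv, hA, hPc, hcard]
      exact Nat.mul_le_mul_left _ hQ1
    exact ⟨eA.trans ((MulEquiv.subgroupCongr he.symm).trans (Subgroup.prodEquiv _ _))⟩
  · rcases prod_cases (by omega) hR (fun a => by
      obtain ⟨x, rfl⟩ := (htop ▸ Subgroup.mem_top a : a ∈ P.σ.range)
      exact ⟨ψ x, x, rfl⟩) with e | e | e
    · exact Or.inl ⟨eA.trans ((MulEquiv.subgroupCongr e).trans Subgroup.topEquiv)⟩
    · exact Or.inr (Or.inl ⟨eA.trans ((MulEquiv.subgroupCongr e).trans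
        ((Subgroup.prodEquiv _ _).trans (MulEquiv.prodCongr Subgroup.topEquiv (MulEquiv.refl _))))⟩)
    · exact Or.inr (Or.inr ⟨eA.trans (MulEquiv.subgroupCongr e)⟩)

end

end Cfsg.Agent.Suborbit
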