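import Mathlib

/-! The order of an abelian `p`-subgroup of rank `k` of a symmetric group of degree `n` is at most
`(n/k)^k`: the group embeds in a product of cyclic groups of total size at most `n`. -/

set_option autoImplicit false
set_option linter.style.haveILetI false

namespace Cfsg.Agent.Suborbit

open MulAction

theorem prod_mul_pow_le {ι : Type*} (s : Finset ι) (f : ι → ℕ) :
    (∏ i ∈ s, f i) * s.card ^ s.card ≤ (∑ i ∈ s, f i) ^ s.card := by
  rcases s.eq_empty_or_nonempty with rfl | hs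
  · simp
  set k := s.card
  have hk : 0 < k := hs.card_pos
  have hk' : (0 : ℝ) < k := by exact_mod_cast hk
  have h := Real.geom_mean_le_arith_mean s (fun _ => (1 : ℝ)) (fun i => (f i : ℝ))
    (fun _ _ => zero_le_one) (by simp only [Finset.sum_const, nsmul_eq_mul, mul_one]; exact hk')
    (fun _ _ => Nat.cast_nonneg _)
  simp only [Real.rpow_one, Finset.sum_const, nsmul_eq_mul, mul_one, one_mul] at h
  have hP : (0 : ℝ) ≤ ∏ i ∈ s, (f i : ℝ) := Finset.prod_nonneg fun _ _ => Nat.cast_nonneg _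
  have h2 := pow_le_pow_left₀ (Real.rpow_nonneg hP _) h k
  rw [Real.rpow_inv_natCast_pow hP hk.ne', div_pow, le_div_iff₀ (pow_pos hk' _)] at h2
  exact_mod_cast h2

variable {A : Type*} [CommGroup A] [Finite A]

theorem exists_separating (p : ℕ) [hp : Fact p.Prime] {J : Type*} (C : J → Type*)
    [∀ j, CommGroup (C j)] [∀ j, Finite (C j)] [∀ j, IsCyclic (C j)] (f : ∀ j, A →* C j)
    (hsep : ∀ x : A, (∀ j, f j x = 1) → x = 1) :
    ∀ j : ℕ, ∀ W : Subgroup A, (∀ x ∈ W, x ^ p = 1) → Nat.card W = p ^ j →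
      ∃ S : Finset J, S.card ≤ j ∧ ∀ x ∈ W, (∀ i ∈ S, f i x = 1) → x = 1 := by
  classical
  intro j
  induction j with
  | zero =>
    intro W _ hc
    refine ⟨∅, le_rfl, fun x hx _ => ?_⟩
    rw [pow_zero, Subgroup.card_eq_one] at hc
    rwa [hc, Subgroup.mem_bot] at hx
  | succ j ih =>
    intro W hWp hc
    obtain ⟨x, hx, hx1⟩ : ∃ x ∈ W, x ≠ 1 := by
      refine (Subgroup.bot_or_exists_ne_one W).resolve_left fun hW => ?_
      rw [hW, Subgroup.card_bot] at hc
      exact absurd hc.symm (Nat.one_lt_pow j.succ_ne_zero hp.out.one_lt).ne'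
    obtain ⟨i, hi⟩ : ∃ i, f i x ≠ 1 := by
      by_contra h
      push Not at h
      exact hx1 (hsep x h)
    let W' := W ⊓ (f i).ker
    have hle : W' ≤ W := inf_le_left
    have himg : Nat.card (W.map (f i)) ≤ p := by
      haveI := Fintype.ofFinite (C i)
      refine le_trans ?_ (IsCyclic.card_pow_eq_one_le (α := C i) hp.out.pos)
      rw [Nat.card_eq_fintype_card, ← Fintype.card_coe]
      refine Fintype.card_le_of_injective (fun y => ⟨(y : C i), ?_⟩) fun a b h => Subtype.ext (congrArg Subtype.val h :)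
      obtain ⟨w, hw, hwy⟩ := y.2
      simp only [Finset.mem_filter, Finset.mem_univ, true_and]
      rw [← hwy, ← map_pow, hWp w hw, map_one]
    have hmul : Nat.card W' * Nat.card (W.map (f i)) = p ^ (j + 1) := by
      rw [← hc, ← Subgroup.relIndex_bot_left W, ← Subgroup.relIndex_mul_relIndex ⊥ W' W bot_le hle,
        Subgroup.relIndex_bot_left, Subgroup.inf_relIndex_left, Subgroup.relIndex_ker]
    obtain ⟨e, he, hWe⟩ := (Nat.dvd_prime_pow hp.out).1 (Dvd.intro _ hmul)
    obtain ⟨e', he', hWe'⟩ := (Nat.dvd_prime_pow hp.out).1 (Dvd.intro_left _ hmul)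
    rw [hWe, hWe', ← pow_add] at hmul
    have hee : e + e' = j + 1 := Nat.pow_right_injective hp.out.two_le hmul
    have he1 : e' = 1 := by
      refine le_antisymm ?_ ?_
      · rw [hWe'] at himg
        exact (Nat.pow_le_pow_iff_right hp.out.one_lt).1 (by rwa [pow_one])
      · by_contra h0
        rw [Nat.lt_one_iff.1 (not_le.1 h0), pow_zero, Subgroup.card_eq_one] at hWe'
        have hfx : f i x ∈ W.map (f i) := ⟨x, hx, rfl⟩
        rw [hWe', Subgroup.mem_bot] at hfx
        exact hi hfx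
    obtain ⟨S, hS, hSsep⟩ := ih W' (fun y hy => hWp y (hle hy)) (by rw [hWe]; congr 1; omega)
    refine ⟨insert i S, (Finset.card_insert_le _ _).trans (Nat.succ_le_succ hS), fun y hy hall => ?_⟩
    exact hSsep y ⟨hy, hall i (Finset.mem_insert_self _ _)⟩ fun l hl => hall l (Finset.mem_insert_of_mem hl)

theorem sum_le_prod {ι : Type*} (s : Finset ι) (f : ι → ℕ) (hf : ∀ i ∈ s, 2 ≤ f i) :
    ∑ i ∈ s, f i ≤ ∏ i ∈ s, f i := by
  classical
  induction s using Finset.induction_on with
  | empty => simp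
  | insert i s his ih =>
    rw [Finset.sum_insert his, Finset.prod_insert his]
    rcases s.eq_empty_or_nonempty with rfl | ⟨l, hl⟩
    · simp
    have h1 := ih fun l hl => hf l (Finset.mem_insert_of_mem hl)
    have h2 : 2 ≤ ∑ l ∈ s, f l :=
      (hf l (Finset.mem_insert_of_mem hl)).trans (Finset.single_le_sum (fun _ _ => Nat.zero_le _) hl)
    have h3 := hf i (Finset.mem_insert_self _ _)
    have h4 : f i + ∏ l ∈ s, f l ≤ f i * ∏ l ∈ s, f l := by
      obtain ⟨u, hu⟩ : ∃ u, f i = u + 2 := ⟨f i - 2, by omega⟩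
      obtain ⟨v, hv⟩ : ∃ v, ∏ l ∈ s, f l = v + 2 := ⟨(∏ l ∈ s, f l) - 2, by omega⟩
      rw [hu, hv]
      nlinarith
    omega

variable {Ω : Type*} [Fintype Ω] [MulAction A Ω] [FaithfulSMul A Ω]

theorem abelian_degree_bound (p : ℕ) [hp : Fact p.Prime] (hA : IsPGroup p A) (k : ℕ)
    (hk : Nat.card {x : A // x ^ p = 1} = p ^ k) : Nat.card A * k ^ k ≤ Fintype.card Ω ^ k := by
  classical
  haveI : Fintype (orbitRel.Quotient A Ω) := Fintype.ofFinite _
  choose ι hι c hc e using fun q : orbitRel.Quotient A Ω =>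
    CommGroup.equiv_prod_multiplicative_zmod_of_finite (A ⧸ stabilizer A q.out)
  have e' : ∀ q : orbitRel.Quotient A Ω, (A ⧸ stabilizer A q.out) ≃* ((i : ι q) → Multiplicative (ZMod (c q i))) :=
    fun q => (e q).some
  let J := Σ q : orbitRel.Quotient A Ω, ι q
  haveI : ∀ q, Fintype (ι q) := hι
  haveI : ∀ j : J, NeZero (c j.1 j.2) := fun j => ⟨by have := hc j.1 j.2; omega⟩
  let f : ∀ j : J, A →* Multiplicative (ZMod (c j.1 j.2)) := fun j =>
    (Pi.evalMonoidHom (fun i : ι j.1 => Multiplicative (ZMod (c j.1 i))) j.2).comp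
      ((e' j.1).toMonoidHom.comp (QuotientGroup.mk' (stabilizer A j.1.out)))
  have hsep : ∀ x : A, (∀ j, f j x = 1) → x = 1 := by
    intro x hx
    refine eq_of_smul_eq_smul (α := Ω) fun ω => ?_
    rw [one_smul]
    let q : orbitRel.Quotient A Ω := Quotient.mk'' ω
    have h1 : (x : A ⧸ stabilizer A q.out) = 1 := (e' q).injective (by
      rw [map_one]
      funext i
      exact hx ⟨q, i⟩)
    rw [QuotientGroup.eq_one_iff, mem_stabilizer_iff] at h1
    obtain ⟨g, hg⟩ : q.out ∈ orbit A ω := orbitRel_apply.1 (Quotient.exact (Quotient.out_eq' q))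
    change g • ω = q.out at hg
    rw [← hg, ← mul_smul, mul_comm, mul_smul, smul_left_cancel_iff] at h1
    exact h1
  have hsum : ∑ j : J, c j.1 j.2 ≤ Fintype.card Ω := by
    rw [Fintype.sum_sigma, ← Nat.card_eq_fintype_card,
      Nat.card_congr (selfEquivSigmaOrbitsQuotientStabilizer A Ω), Nat.card_sigma]
    refine Finset.sum_le_sum fun q _ => ?_
    refine (sum_le_prod Finset.univ _ fun i _ => hc q i).trans (le_of_eq ?_)
    rw [Nat.card_congr (e' q).toEquiv, Nat.card_pi]
    exact Finset.prod_congr rfl fun i _ => ((Nat.card_congr Multiplicative.toAdd).trans (Nat.card_zmod _)).symm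
  let W : Subgroup A := (powMonoidHom p : A →* A).ker
  have hW : Nat.card W = p ^ k := by
    rw [← hk]
    exact Nat.card_congr (Equiv.subtypeEquivRight fun x => by simp [W])
  obtain ⟨S, hS, hSsep⟩ := exists_separating p (fun j : J => Multiplicative (ZMod (c j.1 j.2))) f hsep k W
    (fun x hx => by simpa [W] using hx) hW
  -- `S` separates all of `A`
  have hinj : Function.Injective (fun x : A => fun i : S => f i.1 x) := by
    intro x y hxy
    by_contra hne
    have hz : x⁻¹ * y ≠ 1 := fun h => hne (inv_mul_eq_one.1 h)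
    set z := x⁻¹ * y
    obtain ⟨m, hm⟩ := hA z
    obtain ⟨n', -, hn'⟩ := (Nat.dvd_prime_pow hp.out).1 (orderOf_dvd_of_pow_eq_one hm)
    obtain ⟨n, rfl⟩ : ∃ n, n' = n + 1 := by
      refine ⟨n' - 1, ?_⟩
      rcases n'.eq_zero_or_pos with rfl | h
      · exact absurd (orderOf_eq_one_iff.1 (by rw [hn', pow_zero])) hz
      · omega
    have hn := hn'
    have hw : z ^ p ^ n ∈ W ∧ z ^ p ^ n ≠ 1 := by
      constructor
      · show (z ^ p ^ n) ^ p = 1
        rw [← pow_mul, ← pow_succ, ← hn, pow_orderOf_eq_one]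
      · intro h
        have := Nat.le_of_dvd (pow_pos hp.out.pos _) (orderOf_dvd_of_pow_eq_one h)
        rw [hn] at this
        exact (Nat.pow_lt_pow_right hp.out.one_lt (Nat.lt_succ_self n)).not_ge this
    refine hw.2 (hSsep _ hw.1 fun i hi => ?_)
    have h2 : f i x = f i y := congrFun hxy ⟨i, hi⟩
    rw [map_pow, map_mul, map_inv, h2, inv_mul_cancel, one_pow]
  have hcard : Nat.card A ≤ ∏ i ∈ S, c i.1 i.2 := by
    refine (Nat.card_le_card_of_injective _ hinj).trans (le_of_eq ?_)
    rw [Nat.card_pi, ← Finset.prod_coe_sort S (fun i => c i.1 i.2)]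
    exact Finset.prod_congr rfl fun i _ => (Nat.card_congr Multiplicative.toAdd).trans (Nat.card_zmod _)
  have hSk : k ≤ S.card := by
    let g : W → ((i : S) → {y : Multiplicative (ZMod (c i.1.1 i.1.2)) // y ^ p = 1}) := fun w i =>
      ⟨f i.1 w, by rw [← map_pow, show (w : A) ^ p = 1 from w.2, map_one]⟩
    have hg : Function.Injective g := fun a b h => by
      have h3 := hSsep ((a : A)⁻¹ * b) (W.mul_mem (W.inv_mem a.2) b.2) fun i hi => by
        have h4 : f i (a : A) = f i (b : A) := congrArg Subtype.val (congrFun h ⟨i, hi⟩)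
        rw [map_mul, map_inv, h4, inv_mul_cancel]
      exact Subtype.ext (inv_mul_eq_one.1 h3)
    have h1 := Nat.card_le_card_of_injective g hg
    rw [hW, Nat.card_pi] at h1
    have h2 : p ^ k ≤ p ^ S.card := by
      refine h1.trans ((Finset.prod_le_pow_card _ _ p fun i _ => ?_).trans (le_of_eq ?_))
      · rw [Nat.card_eq_fintype_card, Fintype.card_subtype]
        exact IsCyclic.card_pow_eq_one_le hp.out.pos
      · rw [Finset.card_univ, Fintype.card_coe]
    exact (Nat.pow_le_pow_iff_right hp.out.one_lt).1 h2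
  have hSeq : S.card = k := le_antisymm hS hSk
  calc Nat.card A * k ^ k ≤ (∏ i ∈ S, c i.1 i.2) * k ^ k := Nat.mul_le_mul_right _ hcard
    _ ≤ (∑ i ∈ S, c i.1 i.2) ^ k := by rw [← hSeq]; exact prod_mul_pow_le S _
    _ ≤ Fintype.card Ω ^ k := Nat.pow_le_pow_left ((Finset.sum_le_univ_sum_of_nonneg fun _ => Nat.zero_le _).trans hsum) k

end Cfsg.Agent.Suborbit
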