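import Cfsg.Agent.Alt.Basic
import Mathlib.GroupTheory.Nilpotent

/-!
Lemmas on symmetric groups of degree at least five used for suborbits inducing the alternating group.
-/

set_option autoImplicit false

namespace Cfsg.Agent.Suborbit

open Equiv Equiv.Perm

variable {α : Type*} [Fintype α] [DecidableEq α]

/-- A non-trivial set of permutations forming a subgroup normalised by the alternating group
contains it. -/
theorem alt_le_of_normalized (h5 : 5 ≤ Nat.card α) {N : Subgroup (Perm α)} (hne : N ≠ ⊥)
    (hn : ∀ a ∈ alternatingGroup α, ∀ n ∈ N, a * n * a⁻¹ ∈ N) : alternatingGroup α ≤ N := by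
  haveI := alternatingGroup.isSimpleGroup (α := α) h5
  haveI : (N.subgroupOf (alternatingGroup α)).Normal := ⟨fun n hn' a => hn a a.2 n hn'⟩
  rcases Subgroup.Normal.eq_bot_or_eq_top (H := N.subgroupOf (alternatingGroup α)) inferInstance with h | h
  · exfalso
    apply hne
    rw [eq_bot_iff, ← Alt.centralizer_alternatingGroup_eq_bot (α := α) (by omega)]
    intro n hn'
    rw [Subgroup.mem_centralizer_iff]
    intro a ha
    have h1 : a * n * a⁻¹ * n⁻¹ ∈ alternatingGroup α := by
      rw [show a * n * a⁻¹ * n⁻¹ = a * (n * a⁻¹ * n⁻¹) by group]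
      exact mul_mem ha ((inferInstance : (alternatingGroup α).Normal).conj_mem _ (inv_mem ha) n)
    have h2 : (⟨_, h1⟩ : alternatingGroup α) ∈ N.subgroupOf (alternatingGroup α) :=
      mul_mem (hn a ha n hn') (inv_mem hn')
    rw [h, Subgroup.mem_bot] at h2
    have h3 : a * n * a⁻¹ * n⁻¹ = 1 := congrArg Subtype.val h2
    rw [mul_inv_eq_one, mul_inv_eq_iff_eq_mul] at h3
    exact h3
  · exact Subgroup.subgroupOf_eq_top.1 h

/-- The alternating group of degree at least five is not nilpotent. -/
theorem not_isNilpotent_of_alt_le (h5 : 5 ≤ Nat.card α) {N : Subgroup (Perm α)}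
    (h : alternatingGroup α ≤ N) : ¬ Group.IsNilpotent N := by
  intro hN
  haveI := hN
  haveI : Nontrivial N := by
    haveI := alternatingGroup.isSimpleGroup (α := α) h5
    obtain ⟨a, ha⟩ := exists_ne (1 : alternatingGroup α)
    exact ⟨⟨a.1, h a.2⟩, 1, fun e => ha (Subtype.ext (congrArg Subtype.val e : _))⟩
  haveI : Nontrivial (Subgroup.center N) :=
    (Subgroup.nontrivial_iff_ne_bot _).2 (Group.IsNilpotent.center_ne_bot N)
  obtain ⟨z, hz⟩ := exists_ne (1 : Subgroup.center N)
  apply hz
  have hc : (z.1.1) ∈ Subgroup.centralizer ((alternatingGroup α : Subgroup (Perm α)) : Set (Perm α)) := by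
    rw [Subgroup.mem_centralizer_iff]
    intro a ha
    exact congrArg Subtype.val (Subgroup.mem_center_iff.1 z.2 ⟨a, h ha⟩)
  rw [Alt.centralizer_alternatingGroup_eq_bot (α := α) (by omega), Subgroup.mem_bot] at hc
  exact Subtype.ext (Subtype.ext hc)

/-- A group with a family of normal subgroups of small index meeting trivially has no large simple
quotient. -/
theorem not_surjective_of_small {Y S : Type*} [Group Y] [Finite Y] [Group S] [IsSimpleGroup S]
    {ι : Type*} [Fintype ι] (κ : ι → Subgroup Y) (hn : ∀ i, (κ i).Normal)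
    (hκ : ∀ i, (κ i).index < Nat.card S) (hbot : ∀ y, (∀ i, y ∈ κ i) → y = 1) (f : Y →* S) :
    ¬ Function.Surjective f := by
  classical
  intro hf
  have key : ∀ s : Finset ι, (s.inf κ).Normal ∧ (s.inf κ).map f = ⊤ := by
    intro s
    induction s using Finset.induction_on with
    | empty => exact ⟨by rw [Finset.inf_empty]; infer_instance,
        by rw [Finset.inf_empty, Subgroup.map_top_of_surjective f hf]⟩
    | insert i s _ ih =>
      obtain ⟨hN, hmap⟩ := ih
      haveI := hn i
      haveI := hN
      rw [Finset.inf_insert]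
      refine ⟨inferInstance, ?_⟩
      haveI : ((κ i ⊓ s.inf κ).map f).Normal := Subgroup.Normal.map inferInstance f hf
      refine (Subgroup.Normal.eq_bot_or_eq_top inferInstance).resolve_left fun h => ?_
      have h1 : f.ker.relIndex (s.inf κ) = Nat.card S := by
        rw [Subgroup.relIndex_ker, hmap, Subgroup.card_top]
      have h2 : f.ker.relIndex (s.inf κ) ∣ (κ i ⊓ s.inf κ).relIndex (s.inf κ) :=
        Subgroup.relIndex_dvd_of_le_left _ ((Subgroup.map_eq_bot_iff _).1 h)
      rw [h1, Subgroup.inf_relIndex_right] at h2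
      have h3 : (κ i).relIndex (s.inf κ) ∣ (κ i).index := Subgroup.relIndex_dvd_index_of_normal _ _
      have h4 := Nat.le_of_dvd (Nat.pos_of_ne_zero Subgroup.index_ne_zero_of_finite) (h2.trans h3)
      exact absurd h4 (Nat.not_le.2 (hκ i))
  have h := (key Finset.univ).2
  rw [show (Finset.univ.inf κ) = ⊥ by
    rw [eq_bot_iff]
    exact fun y hy => Subgroup.mem_bot.2 (hbot y fun i => Finset.inf_le (f := κ) (Finset.mem_univ i) hy),
    Subgroup.map_bot] at h
  exact bot_ne_top h

theorem factorial_lt_card_alternatingGroup {d : ℕ} (h : 3 ≤ d) :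
    (d - 1).factorial < Nat.card (alternatingGroup (Fin d)) := by
  haveI : Nontrivial (Fin d) := Fin.nontrivial_iff_two_le.2 (by omega)
  have h1 := two_mul_nat_card_alternatingGroup (α := Fin d)
  rw [Nat.card_perm, Nat.card_fin] at h1
  have h2 := Nat.mul_factorial_pred (show d ≠ 0 by omega)
  have h3 := Nat.factorial_pos (d - 1)
  nlinarith

end Cfsg.Agent.Suborbit
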